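import Mathlib

/-! Limits of subspaces of an algebra under a one-parameter group `1 + tγ` with `γ² = 0`. -/

set_option autoImplicit false

namespace Cfsg.Agent.H9.Lyn

open Polynomial Module

variable {k R : Type*} [Field k] [Ring R] [Algebra k R] (γ : R) (S : Submodule k R)

/-- Conjugation by `1 + Xγ`. -/
noncomputable def cj (g : R[X]) : R[X] := (1 + C γ * X) * g * (1 - C γ * X)

/-- The conjugates of the polynomials with coefficients in `S`. -/
def PP : Submodule k R[X] where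
  carrier := {f | ∃ g : R[X], (∀ n, g.coeff n ∈ S) ∧ f = cj γ g}
  zero_mem' := ⟨0, by simp, by simp [cj]⟩
  add_mem' := by
    rintro _ _ ⟨a, ha, rfl⟩ ⟨b, hb, rfl⟩
    exact ⟨a + b, fun n => by simpa using add_mem (ha n) (hb n), by simp [cj, mul_add, add_mul]⟩
  smul_mem' := by
    rintro c _ ⟨a, ha, rfl⟩
    exact ⟨c • a, fun n => by simpa using S.smul_mem c (ha n), by simp [cj]⟩

variable {γ S}

theorem cj_eq (g : R[X]) :
    cj γ g = g + X ^ 1 * (C γ * g - g * C γ) - X ^ 2 * (C γ * g * C γ) := by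
  have h : ∀ a : R[X], X * a = a * X := fun _ => X_mul
  rw [cj, pow_one, pow_two, mul_assoc X X, h, h, h]
  calc _ = g + C γ * (X * g) - g * C γ * X - C γ * (X * (g * C γ)) * X := by noncomm_ring
    _ = _ := by rw [h, h]; noncomm_ring

theorem cj_X (g : R[X]) (n : ℕ) : cj γ (X ^ n * g) = X ^ n * cj γ g := by
  rw [cj, cj, ← mul_assoc, ← X_pow_mul, mul_assoc, mul_assoc, mul_assoc]

theorem cj_cj (h : γ * γ = 0) (g : R[X]) : cj γ (cj (-γ) g) = g := by
  have : (1 + C γ * X) * (1 - C γ * X) = 1 := by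
    calc _ = 1 - C γ * (X * C γ) * X := by noncomm_ring
      _ = 1 := by rw [X_mul, ← mul_assoc, ← C_mul, h]; simp
  have h' : (1 + C γ * X) * (1 - C γ * X) = (1 - C γ * X) * (1 + C γ * X) := by noncomm_ring
  simp only [cj, map_neg, neg_mul, ← sub_eq_add_neg, sub_neg_eq_add]
  rw [← mul_assoc, ← mul_assoc, this, one_mul, mul_assoc, this, mul_one]

theorem cj_mul (h : γ * γ = 0) (f g : R[X]) : cj γ f * cj γ g = cj γ (f * g) := by
  have : (1 - C γ * X) * (1 + C γ * X) = 1 := by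
    calc _ = 1 - C γ * (X * C γ) * X := by noncomm_ring
      _ = 1 := by rw [X_mul, ← mul_assoc, ← C_mul, h]; simp
  simp only [cj, mul_assoc]
  rw [← mul_assoc (1 - C γ * X), this, one_mul]

theorem coeff_cj_mem {T : Submodule k R}
    (hT : ∀ x ∈ S, x ∈ T ∧ γ * x - x * γ ∈ T ∧ γ * x * γ ∈ T) {g : R[X]}
    (hg : ∀ n, g.coeff n ∈ S) (n : ℕ) : (cj γ g).coeff n ∈ T := by
  rw [cj_eq, coeff_sub, coeff_add, coeff_X_pow_mul', coeff_X_pow_mul']
  refine sub_mem (add_mem (hT _ (hg n)).1 ?_) ?_ <;> split_ifs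
  · simpa using (hT _ (hg _)).2.1
  · simp
  · simpa using (hT _ (hg _)).2.2
  · simp

theorem X_mem {f : R[X]} (h : f ∈ PP γ S) (n : ℕ) : X ^ n * f ∈ PP γ S := by
  obtain ⟨g, hg, rfl⟩ := h
  refine ⟨_, fun m => ?_, (cj_X g n).symm⟩
  rw [coeff_X_pow_mul']
  split_ifs <;> simp [hg]

variable (γ S) in
/-- The limit subspace. -/
def lim : Submodule k R where
  carrier := {c | ∃ d, ∃ f ∈ PP γ S, f.natDegree ≤ d ∧ f.coeff d = c}
  zero_mem' := ⟨0, 0, zero_mem _, by simp, rfl⟩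
  add_mem' := by
    rintro _ _ ⟨d, f, hf, h1, rfl⟩ ⟨e, g, hg, h2, rfl⟩
    refine ⟨d + e, X ^ e * f + X ^ d * g, add_mem (X_mem hf e) (X_mem hg d), ?_, ?_⟩
    · refine (natDegree_add_le _ _).trans (max_le ?_ ?_) <;>
      refine natDegree_mul_le.trans ?_
      · have := natDegree_X_pow_le (R := R) e; omega
      · have := natDegree_X_pow_le (R := R) d; omega
    · rw [coeff_add, coeff_X_pow_mul, add_comm d e, coeff_X_pow_mul]
  smul_mem' := by
    rintro c _ ⟨d, f, hf, h1, rfl⟩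
    exact ⟨d, c • f, Submodule.smul_mem _ c hf, (natDegree_smul_le _ _).trans h1, by simp⟩

theorem lim_mono {T : Submodule k R} (h : S ≤ T) : lim γ S ≤ lim γ T := by
  rintro _ ⟨d, _, ⟨g, hg, rfl⟩, h1, rfl⟩
  exact ⟨d, _, ⟨g, fun n => h (hg n), rfl⟩, h1, rfl⟩

theorem lim_le {T : Submodule k R} (hT : ∀ x ∈ S, x ∈ T ∧ γ * x - x * γ ∈ T ∧ γ * x * γ ∈ T) :
    lim γ S ≤ T := by
  rintro _ ⟨d, _, ⟨g, hg, rfl⟩, -, rfl⟩
  exact coeff_cj_mem hT hg d

theorem lim_mul (h : γ * γ = 0) {T : Submodule k R} (hT : ∀ x ∈ S, ∀ y ∈ T, x * y = 0) {x y : R}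
    (hx : x ∈ lim γ S) (hy : y ∈ lim γ T) : x * y = 0 := by
  obtain ⟨d, _, ⟨f, hf, rfl⟩, h1, rfl⟩ := hx
  obtain ⟨e, _, ⟨g, hg, rfl⟩, h2, rfl⟩ := hy
  have : f * g = 0 := Polynomial.ext fun n => by
    rw [coeff_mul]; exact Finset.sum_eq_zero fun c _ => hT _ (hf _) _ (hg _)
  rw [← coeff_mul_add_eq_of_natDegree_le h1 h2, cj_mul h, this]
  simp [cj]

theorem finrank_lim [FiniteDimensional k R] (h : γ * γ = 0) : finrank k S ≤ finrank k (lim γ S) := by
  let Q : ℕ → Submodule k R[X] := fun d => PP γ S ⊓ (degreeLT R d).restrictScalars k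
  have hQ : ∀ d f, f ∈ Q d ↔ f ∈ PP γ S ∧ ∀ n, d ≤ n → f.coeff n = 0 := fun d f => by
    simp [Q, mem_degreeLT, degree_lt_iff_coeff_zero]
  let c : ℕ → R[X] →ₗ[k] R := fun n => (lcoeff R n).restrictScalars k
  have fin : ∀ d, FiniteDimensional k (Q d) := fun d =>
    FiniteDimensional.of_injective ((LinearMap.pi fun i : Fin d => c i) ∘ₗ (Q d).subtype)
      ((injective_iff_map_eq_zero _).mpr fun f hf => Subtype.ext (Polynomial.ext fun n => by
        by_cases e : n < d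
        · exact congrFun hf ⟨n, e⟩
        · exact ((hQ _ _).1 f.2).2 n (by omega)))
  have up : ∀ d, finrank k (Q d) ≤ d * finrank k (lim γ S) := fun d => by
    induction d with
    | zero =>
      rw [show Q 0 = ⊥ from eq_bot_iff.2 fun f hf => Polynomial.ext fun n =>
        ((hQ _ _).1 hf).2 n (by omega)]
      simp
    | succ d ih =>
      have := fin (d + 1)
      have := fin d
      have h1 := (c d ∘ₗ (Q (d + 1)).subtype).finrank_range_add_finrank_ker
      have h2 : LinearMap.range (c d ∘ₗ (Q (d + 1)).subtype) ≤ lim γ S := by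
        rintro _ ⟨f, rfl⟩
        exact ⟨d, f, f.2.1, natDegree_le_iff_coeff_eq_zero.2 ((hQ _ _).1 f.2).2, rfl⟩
      have h3 : (LinearMap.ker (c d ∘ₗ (Q (d + 1)).subtype)).map (Q (d + 1)).subtype ≤ Q d := by
        rintro _ ⟨f, hf, rfl⟩
        refine (hQ _ _).2 ⟨f.2.1, fun n hn => ?_⟩
        rcases hn.eq_or_lt with rfl | hn
        · exact hf
        · exact ((hQ _ _).1 f.2).2 n hn
      have := Submodule.finrank_mono h2
      have := Submodule.finrank_mono h3
      rw [Submodule.finrank_map_subtype_eq] at this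
      rw [add_mul]; omega
  have low : ∀ d, d * finrank k S ≤ finrank k (Q (d + 2)) := fun d => by
    have := fin (d + 2)
    let m : (Fin d → S) →ₗ[k] R[X] :=
      ∑ i : Fin d, (monomial (i : ℕ)).restrictScalars k ∘ₗ S.subtype ∘ₗ LinearMap.proj i
    have hm : ∀ x n, (m x).coeff n = if h : n < d then (x ⟨n, h⟩ : R) else 0 := fun x n => by
      simp only [m, LinearMap.sum_apply, finset_sum_coeff, LinearMap.comp_apply,
        LinearMap.restrictScalars_apply, coeff_monomial]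
      split_ifs with h
      · rw [Finset.sum_eq_single ⟨n, h⟩ (fun i _ hi => if_neg fun e => hi (Fin.ext e)) (by simp)]
        simp
      · exact Finset.sum_eq_zero fun i _ => if_neg fun (e : (i : ℕ) = n) => h (e ▸ i.2)
    let j : R[X] →ₗ[k] R[X] := ⟨⟨cj γ, by simp [cj, mul_add, add_mul]⟩, by simp [cj]⟩
    have := LinearMap.finrank_le_finrank_of_injective (f := (j ∘ₗ m).codRestrict (Q (d + 2))
      fun x => (hQ _ _).2 ⟨⟨m x, fun n => by rw [hm]; split_ifs <;> simp, rfl⟩, fun n hn => by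
        change (cj γ (m x)).coeff n = 0
        have e : ∀ i ≤ 2, (m x).coeff (n - i) = 0 := fun i hi => by rw [hm, dif_neg (by omega)]
        rw [cj_eq, coeff_sub, coeff_add, coeff_X_pow_mul', coeff_X_pow_mul']
        simpa [e] using e 0 (by omega)⟩) ((injective_iff_map_eq_zero _).mpr fun x hx => by
        have e : cj γ (m x) = 0 := congrArg Subtype.val hx
        have e' := cj_cj (γ := -γ) (by simpa) (m x)
        rw [neg_neg, e] at e'
        funext i
        have := hm x i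
        rw [← e', dif_pos i.2] at this
        exact Subtype.ext (by simpa [cj] using this.symm))
    simpa [Module.finrank_pi_fintype] using this
  have := (low (2 * finrank k (lim γ S) + 1)).trans (up _)
  nlinarith

theorem lt_lim (h : γ * γ = 0) {T T' : Submodule k R} (h1 : ∀ x ∈ T, γ * x ∈ T' ∧ x * γ ∈ T')
    (h2 : T' ≤ T) (h3 : ∀ x ∈ S ⊓ T', γ * x - x * γ ∈ S ∧ γ * x * γ ∈ S) {x : R} (hx : x ∈ S ⊓ T)
    (h4 : ¬ (γ * x - x * γ ∈ S ∧ γ * x * γ ∈ S)) : S ⊓ T' < lim γ S ⊓ T' := by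
  have a1 : ∀ y ∈ S ⊓ T', C y ∈ PP γ S := fun y hy =>
    ⟨_, coeff_cj_mem (S := S ⊓ T') (fun z hz => ⟨hz.1, by
      simpa [← neg_sub (γ * z), -neg_sub, ← sub_eq_neg_add] using S.neg_mem (h3 z hz).1,
      by simpa using (h3 z hz).2⟩) fun n => by rw [coeff_C]; split_ifs; exacts [hy, zero_mem _],
      (cj_cj h _).symm⟩
  have a2 : cj γ (C x) ∈ PP γ S := 
    ⟨_, fun n => by rw [coeff_C]; split_ifs; exacts [hx.1, zero_mem _], rfl⟩
  have a3 : cj γ (C x) = C x + X ^ 1 * C (γ * x - x * γ) - X ^ 2 * C (γ * x * γ) := by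
    simp [cj_eq]
  have a4 : γ * x * γ ∈ T' := (h1 _ (h2 (h1 x hx.2).1)).2
  refine SetLike.lt_iff_le_and_exists.2 ⟨fun y hy => ⟨⟨0, _, a1 y hy, by simp, by simp⟩, hy.2⟩, ?_⟩
  by_cases e : γ * x * γ ∈ S
  · refine ⟨γ * x - x * γ, ⟨⟨1, _, add_mem a2 (X_mem (a1 _ ⟨e, a4⟩) 2), ?_, ?_⟩,
      sub_mem (h1 x hx.2).1 (h1 x hx.2).2⟩, fun c => h4 ⟨c.1, e⟩⟩ <;> rw [a3, sub_add_cancel]
    · compute_degree
    · rw [coeff_add, coeff_X_pow_mul', coeff_C]; simp
  · refine ⟨γ * x * γ, ⟨⟨2, _, neg_mem a2, ?_, ?_⟩, a4⟩, fun c => e c.1⟩ <;> rw [a3]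
    · compute_degree
    · simp only [coeff_neg, coeff_sub, coeff_add, coeff_X_pow_mul', coeff_C]; simp

/-- Mutually normalising square-zero subspaces. -/
theorem br_mem (h2 : (2 : k) ≠ 0) {T : Submodule k R}
    (h : ∀ x ∈ S, ∀ y ∈ T, (1 + x) * y * (1 - x) ∈ T) {x y : R} (hx : x ∈ S) (hy : y ∈ T) :
    x * y - y * x ∈ T := by
  have := T.smul_mem (2 : k)⁻¹ (sub_mem (h x hx y hy) (h _ (neg_mem hx) y hy))
  rwa [show (1 + x) * y * (1 - x) - (1 + -x) * y * (1 - -x) = (2 : k) • (x * y - y * x) by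
    rw [two_smul]; noncomm_ring, inv_smul_smul₀ h2] at this

theorem exp_eq (h2 : (2 : k) ≠ 0) {a b c : R} (ha : a * a = 0) (hb : b * b = 0) (hc : c * c = 0)
    (h1 : a * (a * b - b * a) = 0) (h3 : b * (a * b - b * a) = 0)
    (h4 : c * ((a + b) * c - c * (a + b)) = 0) (h : (a + b + c) * (a + b + c) = 0) :
    1 + (a + b + c) = (1 + a) * (1 + b) * (1 + -(2 : k)⁻¹ • (a * b - b * a)) *
      (1 + (c - (2 : k)⁻¹ • ((a + b) * c - c * (a + b)))) := by
  obtain ⟨t, ht⟩ : ∃ t : R, t = (2 : k)⁻¹ • (1 : R) := ⟨_, rfl⟩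
  have t1 : ∀ x : R, (2 : k)⁻¹ • x = t * x := fun x => by simp [ht]
  have t2 : ∀ x : R, x * t = t * x := fun x => by simp [ht]
  have t3 : ∀ x : R, t * x + t * x = x := fun x => by
    rw [← t1, ← add_smul, ← two_mul, mul_inv_cancel₀ h2, one_smul]
  have t4 : ∀ x y : R, x * (t * y) = t * (x * y) := fun x y => by rw [← mul_assoc, t2, mul_assoc]
  obtain ⟨y, hy⟩ : ∃ y, y = a + b := ⟨_, rfl⟩
  have e1 : (1 + a) * (1 + b) * (1 + -(2 : k)⁻¹ • (a * b - b * a)) = 1 + y + t * (y * y) := by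
    rw [neg_smul, t1, hy]
    calc _ = 1 + a + b + a * b - t * (a * b - b * a) - a * (t * (a * b - b * a)) -
          (1 + a) * (b * (t * (a * b - b * a))) := by noncomm_ring
      _ = 1 + a + b + (t * (a * b) + t * (a * b)) - t * (a * b - b * a) := by
        rw [t4, t4, h1, h3, t3]; simp
      _ = 1 + (a + b) + t * (a * b + b * a + a * a + b * b) := by rw [ha, hb]; noncomm_ring
      _ = _ := by noncomm_ring
  have e2 : y * (y * y) = 0 := by
    have u1 : a * b * a = 0 := by rw [← neg_eq_zero, ← h1, mul_sub, ← mul_assoc, ha]; noncomm_ring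
    have u2 : b * a * b = 0 := by rw [← h3, mul_sub, ← mul_assoc b b, hb]; noncomm_ring
    calc _ = a * b * a + b * a * b + (a + b) * (a * a + b * b) + a * a * b + b * b * a := by
          rw [hy]; noncomm_ring
      _ = 0 := by rw [u1, u2, ha, hb]; simp
  rw [← hy] at h h4 ⊢
  have e3 : y * y = -(y * c + c * y) := by
    rw [eq_neg_iff_add_eq_zero, ← h]
    calc _ = y * y + (y * c + c * y) + c * c := by rw [hc, add_zero]
      _ = _ := by noncomm_ring
  have e4 : c * y * c = 0 := by rw [← h4, mul_sub, ← mul_assoc c c, hc]; noncomm_ring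
  have e5 : y * y * c = 0 := by
    rw [e3]
    calc _ = -(y * (c * c) + c * y * c) := by noncomm_ring
      _ = 0 := by rw [hc, e4]; simp
  have e6 : y * (c * y) = 0 := by
    have := e2
    rw [e3, mul_neg, mul_add, ← mul_assoc, e5] at this
    simpa using this
  rw [e1, t1]
  symm
  calc _ = 1 + y + t * (y * y) + c + y * c + t * (y * y * c) - t * (y * c - c * y) -
        y * (t * (y * c - c * y)) - t * (y * (y * (t * (y * c - c * y)))) := by noncomm_ring
    _ = 1 + y + t * -(y * c + c * y) + c + (t * (y * c) + t * (y * c)) - t * (y * c - c * y) := by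
      rw [t4 y, mul_sub y, ← mul_assoc y y, e5, e6, t3, e3]; simp
    _ = _ := by noncomm_ring

end Cfsg.Agent.H9.Lyn
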