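import Cfsg.Agent.H9.Lyn1

/-! Quadratic offenders that are normal in their normal closure. -/

set_option autoImplicit false

namespace Cfsg.Agent.H9.Lyn

open Module Subgroup

theorem exists_mover {Γ : Type*} [Group Γ] (hN : NormalizerCondition Γ) (A : Subgroup Γ)
    (hA : A ≤ normalizer (A : Set Γ))
    (h : ¬ ∀ g : Γ, A.map (MulAut.conj g).toMonoidHom ≤ normalizer (A : Set Γ)) :
    ∃ g u : Γ, u ∈ A.map (MulAut.conj g).toMonoidHom ∧ u ∉ normalizer (A : Set Γ) ∧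
      ∀ t : ℤ, A.map (MulAut.conj (u ^ t)).toMonoidHom ≤ normalizer (A : Set Γ) := by
  let c : Γ → Subgroup Γ := fun g => A.map (MulAut.conj g).toMonoidHom
  let m : Subgroup Γ → Subgroup Γ := fun X => ⨆ g, ⨆ _ : c g ≤ X, c g
  have le : ∀ X g, c g ≤ X → c g ≤ m X := fun X g hg => le_iSup₂_of_le (f := fun g (_ : c g ≤ X) => c g) g hg le_rfl
  have hc : ∀ g x, (c g).map (MulAut.conj x).toMonoidHom = c (x * g) := fun g x => by
    simp only [c, map_map, map_mul]; rfl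
  have nm : ∀ X : Subgroup Γ, normalizer (X : Set Γ) ≤ normalizer (m X : Set Γ) := fun X => by
    have : ∀ x ∈ normalizer (X : Set Γ), ∀ y ∈ m X, x * y * x⁻¹ ∈ m X := fun x hx y hy => by
      refine (show m X ≤ (m X).comap (MulAut.conj x).toMonoidHom from
        iSup₂_le fun g hg => map_le_iff_le_comap.1 ?_) hy
      rw [hc]
      refine le X _ (hc g x ▸ map_le_iff_le_comap.2 fun z hz => ?_)
      exact (mem_normalizer_iff.1 hx z).1 (hg hz)
    exact fun x hx => mem_normalizer_iff.2 fun y => ⟨this x hx y, fun hy => by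
      simpa [mul_assoc] using this _ (inv_mem hx) _ hy⟩
  have h1 : c 1 = A := by simp only [c, map_one]; exact map_id A
  have h2 : m (normalizer (A : Set Γ)) ≤ normalizer (A : Set Γ) := iSup₂_le fun _ hg => hg
  by_contra! H
  have h3 : ∀ g, c g ≤ normalizer (m (normalizer (A : Set Γ)) : Set Γ) → c g ≤ normalizer (A : Set Γ) :=
    fun g hg u hu => by_contra fun hu' => by
      obtain ⟨t, ht⟩ := H g u hu hu'
      refine ht (map_le_iff_le_comap.2 fun a ha => h2 ?_)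
      exact (mem_normalizer_iff.1 (zpow_mem (hg hu) t) a).1 (le _ 1 (h1.symm ▸ hA) (h1.symm ▸ ha))
  have h4 : m (normalizer (m (normalizer (A : Set Γ)) : Set Γ)) = m (normalizer (A : Set Γ)) :=
    le_antisymm (iSup₂_le fun g hg => le _ g (h3 g hg))
      (iSup₂_le fun g hg => le _ g ((le _ g hg).trans le_normalizer))
  have h5 := normalizerCondition_iff_only_full_group_self_normalizing.1 hN _
    (le_antisymm ((nm _).trans_eq (by rw [h4])) le_normalizer)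
  exact h fun g => h3 g (h5 ▸ le_top)

variable {p : ℕ} [Fact p.Prime] {Γ M : Type*} [Group Γ] [AddCommGroup M] [Module (ZMod p) M]
  (ρ : Γ →* End (ZMod p) M) (A : Subgroup Γ)

/-- The logarithms of the elements of `A`. -/
def lg : Submodule (ZMod p) (End (ZMod p) M) := .span _ ((fun a => ρ a - 1) '' A)

/-- Quadratic action. -/
def Quad : Prop := ∀ a ∈ A, ∀ b ∈ A, (ρ a - 1) * (ρ b - 1) = 0

/-- Fixed points. -/
def fx : Submodule (ZMod p) M where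
  carrier := {v | ∀ a ∈ A, ρ a v = v}
  zero_mem' := by simp
  add_mem' {v w} hv hw a ha := by rw [map_add, hv a ha, hw a ha]
  smul_mem' c v hv a ha := by rw [map_smul, hv a ha]

theorem exists_pow_eq_bot [Finite Γ] [Finite M] (hG : IsPGroup p Γ) : ∃ N, lg ρ ⊤ ^ (N + 1) = ⊥ := by
  have key : ∀ U : Submodule (ZMod p) M, (∀ g, U ≤ U.comap (ρ g)) →
      (∃ N, ∀ x ∈ lg ρ ⊤ ^ (N + 1), U ≤ LinearMap.ker x) → ∃ N, lg ρ ⊤ ^ (N + 1) = ⊥ := fun U => by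
    induction U using WellFoundedGT.induction with
    | ind U ih =>
      rintro hU ⟨N, hN⟩
      by_cases e : U = ⊤
      · exact ⟨N, eq_bot_iff.2 fun x hx => LinearMap.ker_eq_top.1 (top_le_iff.1 (e ▸ hN x hx))⟩
      let φ : Γ →* End (ZMod p) (M ⧸ U) :=
        ⟨⟨fun g => U.mapQ U (ρ g) (hU g), by ext; simp⟩, fun _ _ => by ext; simp⟩
      let _ : MulAction Γ (M ⧸ U) := MulAction.compHom _ φ
      have := Submodule.Quotient.nontrivial_iff.2 e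
      have : Finite (M ⧸ U) := Quotient.finite _
      obtain ⟨v, hv, v0⟩ := hG.exists_fixed_point_of_prime_dvd_card_of_fixed_point (M ⧸ U) (by
        rw [Module.natCard_eq_pow_finrank (K := ZMod p), Nat.card_zmod]
        exact dvd_pow_self p finrank_pos.ne') (a := 0) fun g => map_zero (φ g)
      obtain ⟨v, rfl⟩ := U.mkQ_surjective v
      have hm : ∀ w, w ∈ ⨅ g, U.comap (ρ g - 1) ↔ ∀ g, ρ g w - w ∈ U := fun w => by simp
      refine ih (⨅ g, U.comap (ρ g - 1)) (SetLike.lt_iff_le_and_exists.2 ⟨fun w hw =>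
        (hm w).2 fun g => sub_mem (hU g hw) hw, v, (hm v).2 fun g =>
          (Submodule.Quotient.eq U).1 (hv g), fun c => v0 ((Submodule.Quotient.mk_eq_zero U).2 c).symm⟩)
        (fun g w hw => (hm _).2 fun h => ?_) ⟨N + 1, fun x hx => ?_⟩
      · simpa using sub_mem ((hm _).1 hw (h * g)) ((hm _).1 hw g)
      rw [pow_succ] at hx
      refine Submodule.mul_induction_on hx (fun y hy z hz w hw => hN y hy (?_ : z w ∈ U))
        fun y z a b w hw => by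
          rw [LinearMap.mem_ker, LinearMap.add_apply, a hw, b hw, add_zero]
      induction hz using Submodule.span_induction with
      | mem z hz => obtain ⟨g, -, rfl⟩ := hz; exact (hm _).1 hw g
      | zero => simp
      | add y z _ _ a b => exact add_mem a b
      | smul c z _ a => exact U.smul_mem c a
  exact key ⊥ (fun _ => bot_le) ⟨0, fun _ _ => bot_le⟩

variable {ρ A}

theorem mem_lg (h : Quad ρ A) {x : End (ZMod p) M} : x ∈ lg ρ A ↔ ∃ a ∈ A, ρ a = 1 + x := by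
  have m : ∀ {a b x y}, a ∈ A → b ∈ A → ρ a = 1 + x → ρ b = 1 + y → ρ (a * b) = 1 + (x + y) :=
    fun {a b x y} ha hb e1 e2 => by
      have := h a ha b hb
      rw [e1, e2, add_sub_cancel_left, add_sub_cancel_left] at this
      rw [map_mul, e1, e2, mul_add, add_mul, add_mul, this]; simp [add_assoc]
  refine ⟨fun hx => ?_, fun ⟨a, ha, e⟩ => Submodule.subset_span ⟨a, ha, by simp [e]⟩⟩
  induction hx using Submodule.span_induction with
  | mem x hx => obtain ⟨a, ha, rfl⟩ := hx; exact ⟨a, ha, by simp⟩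
  | zero => exact ⟨1, one_mem _, by simp⟩
  | add x y _ _ a b =>
    obtain ⟨a, ha, e1⟩ := a
    obtain ⟨b, hb, e2⟩ := b
    exact ⟨_, mul_mem ha hb, m ha hb e1 e2⟩
  | smul c x _ a =>
    obtain ⟨a, ha, e⟩ := a
    obtain ⟨n, rfl⟩ := ZMod.natCast_zmod_surjective c
    refine ⟨_, pow_mem ha n, ?_⟩
    induction n with
    | zero => simp
    | succ n ih => rw [pow_succ, m (pow_mem ha n) ha ih e]; simp [add_smul]

theorem lg_mul (h : Quad ρ A) {x y : End (ZMod p) M} (hx : x ∈ lg ρ A) (hy : y ∈ lg ρ A) :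
    x * y = 0 := by
  obtain ⟨a, ha, e1⟩ := (mem_lg h).1 hx
  obtain ⟨b, hb, e2⟩ := (mem_lg h).1 hy
  simpa [e1, e2] using h a ha b hb

theorem card_lg [Finite M] (hρ : Function.Injective ρ) (h : Quad ρ A) :
    Nat.card A = p ^ finrank (ZMod p) (lg ρ A) := by
  refine .trans ?_ ((Module.natCard_eq_pow_finrank (K := ZMod p)).trans (by rw [Nat.card_zmod]))
  refine Nat.card_eq_of_bijective (fun a => ⟨ρ a - 1, (mem_lg h).2 ⟨a, a.2, by simp⟩⟩)
    ⟨fun a b e => Subtype.ext (hρ (by simpa using e)), fun x => ?_⟩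
  obtain ⟨a, ha, e⟩ := (mem_lg h).1 x.2
  exact ⟨⟨a, ha⟩, Subtype.ext (by simp [e])⟩

theorem inv_eq {u : Γ} {γ : End (ZMod p) M} (h : γ * γ = 0) (hu : ρ u = 1 + γ) :
    ρ u⁻¹ = 1 - γ := by
  calc _ = ρ u⁻¹ * (ρ u * (1 - γ)) := by rw [hu, add_mul, mul_sub, mul_sub, h]; simp
    _ = _ := by rw [← mul_assoc, ← map_mul, inv_mul_cancel, map_one, one_mul]

theorem cj_mem (h : Quad ρ A) {B : Subgroup Γ} (hB : Quad ρ B) {g : Γ}
    (hg : ∀ a ∈ A, g * a * g⁻¹ ∈ B) {x : End (ZMod p) M} (hx : x ∈ lg ρ A) :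
    ρ g * x * ρ g⁻¹ ∈ lg ρ B := by
  obtain ⟨a, ha, e⟩ := (mem_lg h).1 hx
  exact (mem_lg hB).2 ⟨_, hg a ha, by
    rw [map_mul, map_mul, e, mul_add, add_mul, mul_one, ← map_mul, mul_inv_cancel, map_one]⟩

theorem Quad.conj (h : Quad ρ A) (g : Γ) : Quad ρ (A.map (MulAut.conj g).toMonoidHom) := by
  rintro _ ⟨a, ha, rfl⟩ _ ⟨b, hb, rfl⟩
  have e : ∀ a, ρ (g * a * g⁻¹) - 1 = ρ g * (ρ a - 1) * ρ g⁻¹ := fun a => by
    simp [mul_sub, sub_mul, ← map_mul]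
  calc _ = ρ g * ((ρ a - 1) * (ρ g⁻¹ * ρ g) * (ρ b - 1)) * ρ g⁻¹ := by
        erw [e, e]; simp only [mul_assoc]
    _ = 0 := by rw [← map_mul, inv_mul_cancel, map_one, mul_one, h a ha b hb]; simp

variable (ρ A) in
/-- The right annihilator. -/
def ann : Submodule (ZMod p) (End (ZMod p) M) := ⨅ v, (fx ρ A).comap (LinearMap.applyₗ v)

theorem mem_ann {y : End (ZMod p) M} : y ∈ ann ρ A ↔ ∀ a ∈ A, (ρ a - 1) * y = 0 := by
  simp only [ann, Submodule.mem_iInf, LinearMap.ext_iff]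
  exact ⟨fun h a ha v => sub_eq_zero.2 (h v a ha), fun h v a ha => sub_eq_zero.1 (h a ha v)⟩

theorem finrank_ann [Finite M] :
    finrank (ZMod p) (ann ρ A) = finrank (ZMod p) M * finrank (ZMod p) (fx ρ A) := by
  rw [← Module.finrank_linearMap (ZMod p) (ZMod p)]
  refine (LinearEquiv.ofBijective (LinearMap.codRestrict (ann ρ A)
    (LinearMap.compRight (ZMod p) (fx ρ A).subtype) fun f =>
      (Submodule.mem_iInf _).2 fun v => (f v).2) ⟨fun f g e => LinearMap.ext fun v => Subtype.ext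
        (LinearMap.congr_fun (congrArg Subtype.val e) v), fun y => ?_⟩).finrank_eq.symm
  exact ⟨y.1.codRestrict _ ((Submodule.mem_iInf _).1 y.2), rfl⟩

theorem step [Finite M] [Finite Γ] (hp : (2 : ZMod p) ≠ 0) (hρ : Function.Injective ρ)
    (h : Quad ρ A) {u : Γ} (hu : (ρ u - 1) * (ρ u - 1) = 0) (h1 : u ∉ normalizer (A : Set Γ))
    (h2 : ∀ t : ℤ, A.map (MulAut.conj (u ^ t)).toMonoidHom ≤ normalizer (A : Set Γ)) {N : ℕ}
    (hN : lg ρ ⊤ ^ (N + 1) = ⊥) : ∃ B, Quad ρ B ∧ Nat.card A ≤ Nat.card B ∧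
      finrank (ZMod p) M * finrank (ZMod p) (fx ρ A) ≤ finrank (ZMod p) M * finrank (ZMod p) (fx ρ B) ∧
      ∑ i ∈ Finset.range (N + 1), finrank (ZMod p) (lg ρ A ⊓ lg ρ ⊤ ^ (i + 1) :) <
        ∑ i ∈ Finset.range (N + 1), finrank (ZMod p) (lg ρ B ⊓ lg ρ ⊤ ^ (i + 1) :) := by
  obtain ⟨γ, hγ⟩ : ∃ γ, ρ u = 1 + γ := ⟨ρ u - 1, by simp⟩
  rw [hγ, add_sub_cancel_left] at hu
  have hi := inv_eq hu hγ
  let S : ℤ → Submodule (ZMod p) (End (ZMod p) M) := fun t => lg ρ (A.map (MulAut.conj (u ^ t)).toMonoidHom)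
  have q := fun t : ℤ => h.conj (u ^ t)
  have a1 : ∀ s t, ∀ x ∈ S s, ∀ y ∈ S t, (1 + x) * y * (1 - x) ∈ S t := fun s t x hx y hy => by
    obtain ⟨_, ⟨a, ha, rfl⟩, e⟩ := (mem_lg (q s)).1 hx
    rw [← inv_eq (lg_mul (q s) hx hx) e, ← e]
    refine cj_mem (q t) (q t) ?_ hy
    rintro _ ⟨b, hb, rfl⟩
    exact ⟨_, (mem_normalizer_iff.1 (h2 (s - t) ⟨a, ha, rfl⟩) b).1 hb, by
      simp only [MulEquiv.coe_toMonoidHom, MulAut.conj_apply, zpow_sub]; group⟩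
  have a2 : ∀ s t, ∀ x ∈ S s, ∀ y ∈ S t, x * y - y * x ∈ S t := fun s t x hx y hy =>
    br_mem hp (a1 s t) hx hy
  have a3 : lim γ (lg ρ A) ≤ S 0 ⊔ S 1 ⊔ S (-1) := lim_le fun x hx => by
    have b : ∀ t : ℤ, _ ∈ S t := fun t => cj_mem h (q t) (g := u ^ t) (fun a ha => ⟨a, ha, rfl⟩) hx
    have b0 : x ∈ S 0 ⊔ S 1 ⊔ S (-1) := Submodule.mem_sup_left (Submodule.mem_sup_left (by simpa using b 0))
    have b1 : (1 + γ) * x * (1 - γ) ∈ S 0 ⊔ S 1 ⊔ S (-1) :=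
      Submodule.mem_sup_left (Submodule.mem_sup_right (by simpa [hγ, hi] using b 1))
    have b2 : (1 - γ) * x * (1 + γ) ∈ S 0 ⊔ S 1 ⊔ S (-1) :=
      Submodule.mem_sup_right (by simpa [hγ, hi] using b (-1))
    refine ⟨b0, ?_, ?_⟩
    · have := Submodule.smul_mem _ (2 : ZMod p)⁻¹ (sub_mem b1 b2)
      rwa [show (1 + γ) * x * (1 - γ) - (1 - γ) * x * (1 + γ) = (2 : ZMod p) • (γ * x - x * γ) by
        rw [two_smul]; noncomm_ring, inv_smul_smul₀ hp] at this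
    · have := Submodule.smul_mem _ (2 : ZMod p)⁻¹ (sub_mem (add_mem b0 b0) (add_mem b1 b2))
      rwa [show x + x - ((1 + γ) * x * (1 - γ) + (1 - γ) * x * (1 + γ)) = (2 : ZMod p) • (γ * x * γ) by
        rw [two_smul]; noncomm_ring, inv_smul_smul₀ hp] at this
  have a4 : ∀ x ∈ lim γ (lg ρ A), ∀ y ∈ lim γ (lg ρ A), x * y = 0 := fun x hx y hy =>
    lim_mul hu (fun _ a _ b => lg_mul h a b) hx hy
  have a5 : ∀ x ∈ lim γ (lg ρ A), ∃ g, ρ g = 1 + x := fun x hx => by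
    obtain ⟨_, hy, c, hc, rfl⟩ := Submodule.mem_sup.1 (a3 hx)
    obtain ⟨a, ha, b, hb, rfl⟩ := Submodule.mem_sup.1 hy
    have c1 := a2 _ _ a ha b hb
    have c2 : a * b - b * a ∈ S 0 := by simpa using neg_mem (a2 _ _ b hb a ha)
    have c3 : (a + b) * c - c * (a + b) ∈ S (-1) := by
      have := add_mem (a2 _ _ a ha c hc) (a2 _ _ b hb c hc)
      rwa [show a * c - c * a + (b * c - c * b) = (a + b) * c - c * (a + b) by noncomm_ring] at this
    rw [exp_eq hp (lg_mul (q _) ha ha) (lg_mul (q _) hb hb) (lg_mul (q _) hc hc) (lg_mul (q _) ha c2)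
      (lg_mul (q _) hb c1) (lg_mul (q _) hc c3) (a4 _ hx _ hx)]
    obtain ⟨g1, -, e1⟩ := (mem_lg (q _)).1 ha
    obtain ⟨g2, -, e2⟩ := (mem_lg (q _)).1 hb
    obtain ⟨g3, -, e3⟩ := (mem_lg (q _)).1 (Submodule.smul_mem _ (-(2 : ZMod p)⁻¹) c1)
    obtain ⟨g4, -, e4⟩ := (mem_lg (q _)).1 (sub_mem hc (Submodule.smul_mem _ (2 : ZMod p)⁻¹ c3))
    exact ⟨g1 * g2 * g3 * g4, by simp only [map_mul, e1, e2, e3, e4]⟩
  let B : Subgroup Γ :=
    { carrier := {g | ρ g - 1 ∈ lim γ (lg ρ A)}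
      one_mem' := by simp
      mul_mem' := fun {a b} ha hb => by
        have := (lim γ (lg ρ A)).add_mem ha hb
        rwa [← add_zero (_ + _), ← a4 _ ha _ hb, show ρ a - 1 + (ρ b - 1) + (ρ a - 1) * (ρ b - 1) =
          ρ (a * b) - 1 by rw [map_mul]; noncomm_ring] at this
      inv_mem' := fun {a} ha => by
        simpa [inv_eq (a4 _ ha _ ha) (show ρ a = _ by simp)] using (lim γ (lg ρ A)).neg_mem ha }
  have b1 : Quad ρ B := fun a ha b hb => a4 _ ha _ hb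
  have b2 : lg ρ B = lim γ (lg ρ A) := le_antisymm (Submodule.span_le.2 (by rintro _ ⟨a, ha, rfl⟩; exact ha))
    fun x hx => by
      obtain ⟨g, e⟩ := a5 x hx
      exact (mem_lg b1).2 ⟨g, show ρ g - 1 ∈ _ by simpa [e], e⟩
  have c1 : γ ∈ lg ρ ⊤ := Submodule.subset_span ⟨u, trivial, by simp [hγ]⟩
  have c2 : ∀ i, ∀ x ∈ lg ρ ⊤ ^ (i + 1), γ * x ∈ lg ρ ⊤ ^ (i + 1 + 1) ∧ x * γ ∈ lg ρ ⊤ ^ (i + 1 + 1) :=
    fun i x hx => ⟨pow_succ' (lg ρ ⊤) (i + 1) ▸ Submodule.mul_mem_mul c1 hx,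
      pow_succ (lg ρ ⊤) (i + 1) ▸ Submodule.mul_mem_mul hx c1⟩
  have c3 : ∀ i, lg ρ ⊤ ^ (i + 1 + 1) ≤ lg ρ ⊤ ^ (i + 1) := fun i => by
    rw [pow_succ, pow_succ, mul_assoc]
    refine mul_le_mul_right ?_ _
    rw [lg, Submodule.span_mul_span, Submodule.span_le]
    rintro _ ⟨_, ⟨a, -, rfl⟩, _, ⟨b, -, rfl⟩, rfl⟩
    have m : ∀ a, ρ a - 1 ∈ lg ρ ⊤ := fun a => Submodule.subset_span ⟨a, trivial, rfl⟩
    have := sub_mem (sub_mem (m (a * b)) (m a)) (m b)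
    rwa [show ρ (a * b) - 1 - (ρ a - 1) - (ρ b - 1) = (ρ a - 1) * (ρ b - 1) by
      rw [map_mul]; noncomm_ring] at this
  obtain ⟨i, d0, d1, d2⟩ : ∃ i < N, (¬ ∀ x ∈ lg ρ A ⊓ lg ρ ⊤ ^ (i + 1), γ * x - x * γ ∈ lg ρ A ∧
      γ * x * γ ∈ lg ρ A) ∧ ∀ x ∈ lg ρ A ⊓ lg ρ ⊤ ^ (i + 1 + 1), γ * x - x * γ ∈ lg ρ A ∧
      γ * x * γ ∈ lg ρ A := by
    by_contra H
    have := Nat.decreasingInduction (motive := fun i _ => ∀ x ∈ lg ρ A ⊓ lg ρ ⊤ ^ (i + 1),
      γ * x - x * γ ∈ lg ρ A ∧ γ * x * γ ∈ lg ρ A) (fun i hi ih => by_contra fun c =>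
        H ⟨i, hi, c, ih⟩) (by simp [hN]) (Nat.zero_le N)
    refine h1 (mem_normalizer_fintype fun a ha => ?_)
    have e1 := (mem_lg h).2 ⟨a, ha, (add_sub_cancel 1 _).symm⟩
    have e2 := this _ ⟨e1, by
      rw [zero_add, pow_one]; exact Submodule.subset_span ⟨a, trivial, rfl⟩⟩
    obtain ⟨b, hb, e⟩ := (mem_lg h).1 (sub_mem (add_mem e1 e2.1) e2.2)
    refine hρ (e.trans (?_ : _ = ρ (u * a * u⁻¹))) ▸ hb
    rw [map_mul, map_mul, hγ, hi]
    calc _ = (1 + γ) * ρ a * (1 - γ) + γ * γ := by noncomm_ring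
      _ = _ := by rw [hu, add_zero]
  refine ⟨B, b1, ?_, ?_, Finset.sum_lt_sum (fun j _ => (finrank_lim hu).trans (Submodule.finrank_mono
    (le_inf (b2 ▸ lim_mono inf_le_left) (lim_le fun x hx => ⟨hx.2, c3 j (sub_mem (c2 j x hx.2).1
      (c2 j x hx.2).2), c3 j (c2 j _ (c3 j (c2 j x hx.2).1)).2⟩)))) ⟨i + 1, by simpa, ?_⟩⟩
  · rw [card_lg hρ h, card_lg hρ b1, b2]
    exact Nat.pow_le_pow_right (Fact.out : p.Prime).pos (finrank_lim hu)
  · rw [← finrank_ann, ← finrank_ann]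
    refine (finrank_lim hu).trans (Submodule.finrank_mono fun y hy => mem_ann.2 fun a ha =>
      lim_mul hu (fun x hx z hz => ?_) ha hy)
    obtain ⟨a, ha, e⟩ := (mem_lg h).1 hx
    simpa [e] using mem_ann.1 hz a ha
  · push Not at d1
    obtain ⟨x, hx, d1⟩ := d1
    exact Submodule.finrank_lt_finrank_of_lt (b2 ▸ lt_lim hu (c2 i) (c3 i) d2 hx fun c => d1 c.1 c.2)

theorem main [Finite M] [Finite Γ] (hp : (2 : ZMod p) ≠ 0) (hG : IsPGroup p Γ)
    (hρ : Function.Injective ρ) (h : Quad ρ A) (h0 : A ≠ ⊥) : ∃ B, Quad ρ B ∧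
      Nat.card A ≤ Nat.card B ∧ Nat.card (fx ρ A) ≤ Nat.card (fx ρ B) ∧
      ∀ g : Γ, B.map (MulAut.conj g).toMonoidHom ≤ normalizer (B : Set Γ) := by
  obtain ⟨N, hN⟩ := exists_pow_eq_bot ρ hG
  have : Nontrivial M := by
    by_contra! c
    exact h0 (eq_bot_iff.2 fun a _ => hρ (Subsingleton.elim _ _))
  obtain ⟨B, ⟨b1, b2, b3⟩, hB⟩ := Set.exists_max_image {B | Quad ρ B ∧ Nat.card A ≤ Nat.card B ∧
    finrank (ZMod p) (fx ρ A) ≤ finrank (ZMod p) (fx ρ B)} (fun B => ∑ i ∈ Finset.range (N + 1),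
      finrank (ZMod p) (lg ρ B ⊓ lg ρ ⊤ ^ (i + 1) :)) (Set.toFinite _) ⟨A, h, le_rfl, le_rfl⟩
  refine ⟨B, b1, b2, ?_, by_contra fun c => ?_⟩
  · rw [Module.natCard_eq_pow_finrank (K := ZMod p) (V := fx ρ A),
      Module.natCard_eq_pow_finrank (K := ZMod p) (V := fx ρ B)]
    exact Nat.pow_le_pow_right (Nat.card_pos (α := ZMod p)) b3
  have := hG.isNilpotent
  obtain ⟨g, u, h1, h2, h3⟩ := exists_mover Group.normalizerCondition_of_isNilpotent B le_normalizer c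
  obtain ⟨C, c1, c2, c3, c4⟩ := step (ρ := ρ) hp hρ b1 (b1.conj g u h1 u h1) h2 h3 hN
  exact (hB C ⟨c1, b2.trans c2, b3.trans (Nat.le_of_mul_le_mul_left c3 finrank_pos)⟩).not_gt c4

end Cfsg.Agent.H9.Lyn
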