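import Cfsg.Agent.H15.Sz3

/-! Twisted tensor products of the natural module of a Suzuki group are irreducible. -/

set_option autoImplicit false
set_option linter.style.haveILetI false

namespace Cfsg.Agent.H9.Mar

open Matrix Cfsg.Agent.H15.Sz

variable {L : Type*} [Group L] {F : Type*} [Field F] {ι : Type} [Fintype ι] [DecidableEq ι]

/-- twisted tensor product of a matrix -/
def TM (σ : ι → F →+* F) (A : Matrix (Fin 4) (Fin 4) F) : Matrix (ι → Fin 4) (ι → Fin 4) F :=
  fun c d => ∏ i, σ i (A (c i) (d i))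

theorem TM_mul (σ : ι → F →+* F) (A B : Matrix (Fin 4) (Fin 4) F) :
    TM σ (A * B) = TM σ A * TM σ B := by
  ext c d
  simp only [TM, mul_apply, map_sum, map_mul]
  rw [Finset.prod_univ_sum, Fintype.piFinset_univ]
  exact Finset.sum_congr rfl fun e _ => Finset.prod_mul_distrib

theorem TM_one (σ : ι → F →+* F) : TM σ 1 = 1 := by
  ext c d
  simp only [TM]
  by_cases h : c = d
  · subst h; simp
  · obtain ⟨i, hi⟩ := Function.ne_iff.1 h
    rw [one_apply_ne h]
    exact Finset.prod_eq_zero (Finset.mem_univ i) (by rw [one_apply_ne hi, map_zero])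

omit [DecidableEq ι] in
theorem TM_tr (σ : ι → F →+* F) (A : Matrix (Fin 4) (Fin 4) F) : TM σ Aᵀ = (TM σ A)ᵀ := rfl

/-- height -/
def ht (c : ι → Fin 4) : ℕ := ∑ i, (c i : ℕ)

theorem ht_update (c : ι → Fin 4) (i : ι) (k : Fin 4) :
    ht (Function.update c i k) + c i = ht c + k := by
  simp only [ht]
  rw [← Finset.add_sum_erase _ _ (Finset.mem_univ i), ← Finset.add_sum_erase _ _ (Finset.mem_univ i),
    Function.update_self, Finset.sum_congr rfl fun j hj => by
      rw [Function.update_of_ne (Finset.ne_of_mem_erase hj)]]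
  omega

/-- shift -/
def sh (e : ℕ) (k : Fin 4) : Fin 4 := ⟨(k + e) % 4, Nat.mod_lt _ (by norm_num)⟩

theorem level {σ : ι → F →+* F} {A : Matrix (Fin 4) (Fin 4) F} {e : ℕ} (he : 0 < e)
    (hA : ∀ k l, A k l ≠ 0 → l = k ∨ (k : ℕ) + e ≤ l) (h1 : ∀ k, A k k = 1)
    {v : (ι → Fin 4) → F} (hv : TM σ A *ᵥ v = v) {d : ι → Fin 4}
    (hd : ∀ c, v c ≠ 0 → ht c ≤ ht d + e) :
    ∑ i, (if (d i : ℕ) + e < 4 then
      σ i (A (d i) (sh e (d i))) * v (Function.update d i (sh e (d i))) else 0) = 0 := by
  classical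
  set up := fun i => Function.update d i (sh e (d i)) with hup
  set P := Finset.univ.filter fun i => (d i : ℕ) + e < 4
  have hsh : ∀ i ∈ P, ((sh e (d i) : Fin 4) : ℕ) = d i + e := fun i hi =>
    Nat.mod_eq_of_lt (Finset.mem_filter.1 hi).2
  have hne : ∀ i ∈ P, up i i ≠ d i := fun i hi h => by
    have := hsh i hi
    simp only [hup, Function.update_self] at h
    rw [h] at this; omega
  have h0 := congrFun hv d
  simp only [mulVec, dotProduct] at h0
  rw [← Finset.sum_subset (Finset.subset_univ (insert d (P.image up))), Finset.sum_insert,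
    Finset.sum_image] at h0
  · have e1 : TM σ A d d = 1 := by simp [TM, h1]
    rw [e1, one_mul, add_eq_left] at h0
    rw [← Finset.sum_filter, ← h0]
    refine Finset.sum_congr rfl fun i _ => ?_
    congr 1
    simp only [TM]
    rw [Finset.prod_eq_single i (fun j _ hj => by simp [hup, Function.update_of_ne hj, h1])
      (by simp)]
    simp [hup]
  · intro i hi j _ h
    by_contra hij
    apply hne i hi
    rw [h]; simp [hup, Function.update_of_ne hij]
  · intro h
    obtain ⟨i, hi, h⟩ := Finset.mem_image.1 h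
    exact hne i hi (by rw [h])
  · intro c _ hc
    by_contra hn
    have ht1 := left_ne_zero_of_mul hn
    have ht2 := hd c (right_ne_zero_of_mul hn)
    have hall : ∀ j, c j = d j ∨ (d j : ℕ) + e ≤ c j := fun j =>
      hA _ _ fun h => ht1 (Finset.prod_eq_zero (Finset.mem_univ j) (by rw [h, map_zero]))
    have hle : ∀ j, (d j : ℕ) ≤ c j := fun j => by rcases hall j with h | h <;> omega
    rw [Finset.mem_insert, not_or] at hc
    obtain ⟨i, hi⟩ := Function.ne_iff.1 hc.1
    have hi' := (hall i).resolve_left hi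
    have hi4 : (d i : ℕ) + e < 4 := lt_of_le_of_lt hi' (c i).2
    have hiP : i ∈ P := Finset.mem_filter.2 ⟨Finset.mem_univ _, hi4⟩
    have hle' : ∀ j, (up i j : ℕ) ≤ c j := fun j => by
      by_cases hj : j = i
      · subst hj; simp only [hup, Function.update_self]; rw [hsh j hiP]; exact hi'
      · simp only [hup, Function.update_of_ne hj]; exact hle j
    have hs := ht_update d i (sh e (d i))
    rw [hsh i hiP] at hs
    have := (Finset.sum_eq_sum_iff_of_le (s := Finset.univ) fun j _ => hle' j).1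
      (le_antisymm (Finset.sum_le_sum fun j _ => hle' j) (by
        change ht c ≤ ht (Function.update d i (sh e (d i))); omega))
    exact hc.2 (Finset.mem_image.2 ⟨i, hiP, funext fun j => Fin.ext (this j (Finset.mem_univ j))⟩)

omit [DecidableEq ι] in
theorem dedekind {σ : ι → F →+* F} (hσ : Function.Injective σ) {x : ι → F}
    (h : ∀ b, ∑ i, σ i b * x i = 0) (i : ι) : x i = 0 := by
  have h1 := (linearIndependent_monoidHom F F).comp (fun i => (σ i : F →* F))
    (fun i j e => hσ (RingHom.ext fun b => DFunLike.congr_fun e b))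
  refine Fintype.linearIndependent_iff.1 h1 x (funext fun b => ?_) i
  rw [Finset.sum_apply, Pi.zero_apply, ← h b]
  exact Finset.sum_congr rfl fun i _ => mul_comm _ _

variable [CharP F 2]

theorem fix_supp (T : Tw F) {σ : ι → F →+* F} (hσ : Function.Injective σ) {v : (ι → Fin 4) → F}
    (hv : ∀ a b, TM σ (T.Sm a b) *ᵥ v = v) {c : ι → Fin 4} (hc : v c ≠ 0) : c = fun _ => 0 := by
  classical
  obtain ⟨c0, hc0, hmax⟩ := Finset.exists_max_image (Finset.univ.filter fun c => v c ≠ 0) ht
    ⟨c, by simpa using hc⟩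
  simp only [Finset.mem_filter, Finset.mem_univ, true_and] at hc0 hmax
  have s1 : ∀ c1, v c1 ≠ 0 → ht c1 = ht c0 → ∀ i, (c1 i : ℕ) < 2 := by
    intro c1 h1 h2 i
    by_contra hi
    let k : Fin 4 := ⟨c1 i - 2, by omega⟩
    have hs := ht_update c1 i k
    have hk : (k : ℕ) = c1 i - 2 := rfl
    set d := Function.update c1 i k with hd
    have := dedekind hσ (x := fun j => if (d j : ℕ) + 2 < 4 then
        v (Function.update d j (sh 2 (d j))) else 0) (fun b => by
      refine Eq.trans ?_ (level (σ := σ) (A := T.Sm 0 b) (e := 2) two_pos (fun k l => by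
        fin_cases k <;> fin_cases l <;> simp [Tw.Sm]) (fun k => by fin_cases k <;> simp [Tw.Sm])
        (hv 0 b) (d := d) (fun c hc => by have := hmax c hc; omega))
      refine Finset.sum_congr rfl fun j _ => ?_
      split_ifs with h
      · congr 2
        generalize d j = m at h
        fin_cases m <;> simp [Tw.Sm, sh] at h ⊢
      · rw [mul_zero]) i
    have hdi : d i = k := by simp [hd]
    simp only [hdi] at this
    rw [if_pos (by omega), hd, Function.update_idem, show sh 2 k = c1 i from Fin.ext (by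
      simp only [sh, hk]; omega), Function.update_eq_self] at this
    exact h1 this
  have s2 : ∀ i, c0 i = 0 := by
    intro i
    by_contra hi
    have hi1 : (c0 i : ℕ) = 1 := by
      have := s1 c0 hc0 rfl i
      have : (c0 i : ℕ) ≠ 0 := fun h => hi (Fin.ext h)
      omega
    have hs := ht_update c0 i 0
    set d := Function.update c0 i 0 with hd
    have := dedekind hσ (x := fun j => if (d j : ℕ) + 1 < 4 then
        v (Function.update d j (sh 1 (d j))) else 0) (fun a => by
      refine Eq.trans ?_ (level (σ := σ) (A := T.Sm a 0) (e := 1) one_pos (fun k l => by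
        fin_cases k <;> fin_cases l <;> simp [Tw.Sm]) (fun k => by fin_cases k <;> simp [Tw.Sm])
        (hv a 0) (d := d) (fun c hc => by have := hmax c hc; simp at hs; omega))
      refine Finset.sum_congr rfl fun j _ => ?_
      split_ifs with h
      · by_cases h0 : v (Function.update d j (sh 1 (d j))) = 0
        · rw [h0, mul_zero, mul_zero]
        · have h3 := ht_update d j (sh 1 (d j))
          have h4 : ((sh 1 (d j) : Fin 4) : ℕ) = d j + 1 := Nat.mod_eq_of_lt h
          have h5 := s1 _ h0 (by simp at hs; omega) j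
          rw [Function.update_self, h4] at h5
          rw [show d j = 0 from Fin.ext (by simp; omega)]
          simp [Tw.Sm, sh]
      · rw [mul_zero]) i
    have hdi : d i = 0 := by simp [hd]
    simp only [hdi] at this
    rw [if_pos (by simp), hd, Function.update_idem, show sh 1 0 = c0 i from Fin.ext (by
      simp [sh, hi1]), Function.update_eq_self] at this
    exact hc0 this
  have h0 : ht c0 = 0 := by simp [ht, s2]
  have := hmax c hc
  rw [h0, Nat.le_zero, ht, Finset.sum_eq_zero_iff] at this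
  exact funext fun i => Fin.ext (this i (Finset.mem_univ i))

variable (M : Model L F)

/-- the twisted tensor product module -/
noncomputable def TR (σ : ι → F →+* F) : Representation F L ((ι → Fin 4) → F) where
  toFun g := Matrix.toLin' (TM σ (M.mat g))
  map_one' := by rw [M.mat_one, TM_one, toLin'_one]; rfl
  map_mul' g h := by rw [M.mat_mul, TM_mul, toLin'_mul]; rfl

theorem TR_apply (σ : ι → F →+* F) (g : L) (v : (ι → Fin 4) → F) :
    TR M σ g v = TM σ (M.mat g) *ᵥ v := rfl

theorem exists_fix [Finite F] {Y : Type*} [AddCommGroup Y] [Module F Y] [Finite Y] [Nontrivial Y]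
    (r : Representation F L Y) : ∃ y, y ≠ 0 ∧ ∀ a b, r (M.S a b) y = y := by
  letI : MulAction M.Q Y := MulAction.compHom Y ((r : L →* Module.End F Y).comp M.Q.subtype)
  haveI : Fact (Nat.Prime 2) := Nat.fact_prime_two
  obtain ⟨y, hy⟩ := exists_ne (0 : Y)
  have h2 : addOrderOf y = 2 := addOrderOf_eq_prime (by
    rw [← Nat.cast_smul_eq_nsmul F, CharP.cast_eq_zero, zero_smul]) hy
  obtain ⟨z, hz, hz0⟩ := M.isPGroup_Q.exists_fixed_point_of_prime_dvd_card_of_fixed_point Y
    (h2 ▸ addOrderOf_dvd_natCard y) (a := 0) (fun g => map_zero (r g))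
  exact ⟨z, hz0.symm, fun a b => hz ⟨_, M.S_mem a b⟩⟩

/-- invariant subspaces -/
def Inv {R Y : Type*} [Ring R] [AddCommGroup Y] [Module R Y] (r : L →* Module.End R Y)
    (U : Submodule R Y) : Prop := ∀ g, U ≤ U.comap (r g)

theorem exists_fix' [Finite F] {Y : Type*} [AddCommGroup Y] [Module F Y] [Finite Y]
    (r : Representation F L Y) {U : Submodule F Y} (hU : Inv r U) (h : U ≠ ⊥) :
    ∃ y ∈ U, y ≠ 0 ∧ ∀ a b, r (M.S a b) y = y := by
  haveI := Submodule.nontrivial_iff_ne_bot.2 h
  obtain ⟨y, h0, hy⟩ := exists_fix M (r.subrepresentation U hU)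
  exact ⟨y, y.2, fun e => h0 (Subtype.ext e), fun a b => congrArg Subtype.val (hy a b)⟩

theorem top_mem [Finite F] {σ : ι → F →+* F} (hσ : Function.Injective σ)
    {U : Submodule F ((ι → Fin 4) → F)} (hU : Inv (TR M σ) U) (h : U ≠ ⊥) :
    Pi.single (fun _ => 0) 1 ∈ U := by
  obtain ⟨y, hy, h0, hf⟩ := exists_fix' M (TR M σ) hU h
  have hs : ∀ c, y c ≠ 0 → c = fun _ => 0 := fun c hc =>
    fix_supp M.toTw hσ (fun a b => by rw [← M.mat_S]; exact hf a b) hc
  obtain ⟨c, hc⟩ := Function.ne_iff.1 h0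
  have hc' := hs c hc
  subst hc'
  convert U.smul_mem (y fun _ => 0)⁻¹ hy using 1
  funext d
  by_cases hd : d = fun _ => 0
  · subst hd; simp only [Pi.single_eq_same, Pi.smul_apply, smul_eq_mul]
    exact (inv_mul_cancel₀ hc).symm
  · rw [Pi.single_eq_of_ne hd, Pi.smul_apply, not_not.1 (mt (hs d) hd), smul_zero]

theorem irr [Finite F] {σ : ι → F →+* F} (hσ : Function.Injective σ)
    {U : Submodule F ((ι → Fin 4) → F)} (hU : Inv (TR M σ) U) (h : U ≠ ⊥) : U = ⊤ := by
  by_contra hne
  obtain ⟨f, hf0, hf⟩ := Submodule.exists_le_ker_of_lt_top U (lt_top_iff_ne_top.2 hne)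
  set J := TM σ (H19.J4 F)
  have hJJ : J * J = 1 := by rw [← TM_mul, H19.J4_mul_J4, TM_one]
  let U' : Submodule F ((ι → Fin 4) → F) :=
    { carrier := {w | ∀ u ∈ U, u ⬝ᵥ (J *ᵥ w) = 0}
      add_mem' := fun ha hb u hu => by rw [mulVec_add, dotProduct_add, ha u hu, hb u hu, add_zero]
      zero_mem' := fun u _ => by simp
      smul_mem' := fun c w hw u hu => by rw [mulVec_smul, dotProduct_smul, hw u hu, smul_zero] }
  have hU' : Inv (TR M σ) U' := by
    intro g w hw u hu
    have e : (M.mat g)ᵀ * H19.J4 F * M.mat g = H19.J4 F := H19.sp4_mat ((M.mem_grp.1 (M.ρ_mem g)).1)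
    have e2 : H19.J4 F * M.mat g = (M.mat g⁻¹)ᵀ * H19.J4 F := by
      nth_rewrite 2 [← e]
      rw [← mul_assoc, ← mul_assoc, ← transpose_mul, ← M.mat_mul, mul_inv_cancel, M.mat_one,
        transpose_one, one_mul]
    change u ⬝ᵥ (J *ᵥ (TM σ (M.mat g) *ᵥ w)) = 0
    rw [mulVec_mulVec, ← TM_mul, e2, TM_mul, TM_tr, ← mulVec_mulVec, dotProduct_mulVec, vecMul_transpose]
    exact hw _ (hU g⁻¹ hu)
  have hne' : U' ≠ ⊥ := by
    intro hb
    let w : (ι → Fin 4) → F := fun c => f (Pi.single c 1)
    have hw : ∀ u, u ⬝ᵥ w = f u := fun u => by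
      rw [LinearMap.pi_apply_eq_sum_univ f u]
      refine Finset.sum_congr rfl fun c _ => ?_
      simp only [w, smul_eq_mul]
      congr 2
      funext d; simp [Pi.single_apply, eq_comm]
    have : J *ᵥ w ∈ U' := fun u hu => by
      rw [mulVec_mulVec, hJJ, one_mulVec, hw]; exact hf hu
    rw [hb, Submodule.mem_bot] at this
    have h3 : w = 0 := by rw [← one_mulVec w, ← hJJ, ← mulVec_mulVec, this, mulVec_zero]
    exact hf0 (LinearMap.ext fun u => by rw [← hw, h3, dotProduct_zero]; rfl)
  have h1 := top_mem M hσ hU' hne' _ (hU M.W (top_mem M hσ hU h))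
  rw [TR_apply, M.mat_W, dotProduct_mulVec, ← mulVec_transpose, ← TM_tr,
    show (H19.J4 F)ᵀ = H19.J4 F from by ext i j; fin_cases i <;> fin_cases j <;> rfl,
    mulVec_mulVec, hJJ, one_mulVec] at h1
  simp at h1

/-- an element of order five -/
noncomputable def y5 : L := M.S 0 1 * M.W

/-- its matrix -/
def Y2 : Matrix (Fin 4) (Fin 4) (ZMod 2) := !![1, 1, 0, 1; 1, 0, 1, 0; 0, 1, 0, 0; 1, 0, 0, 0]

theorem mat_y5_pow (j : ℕ) : M.mat (y5 M ^ j) = (Y2 ^ j).map (ZMod.castHom (dvd_refl 2) F) := by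
  rw [M.mat_pow, y5, M.mat_mul, M.mat_S, M.mat_W, ← RingHom.mapMatrix_apply, map_pow]
  congr 1
  ext i j
  fin_cases i <;> fin_cases j <;> simp [Tw.Sm, H19.J4, Y2, mul_apply, Fin.sum_univ_four, Tw.N]

theorem y5_pow : y5 M ^ 5 = 1 := M.mat_inj (by
  rw [mat_y5_pow, show Y2 ^ 5 = 1 by decide, M.mat_one, Matrix.map_one _ (map_zero _) (map_one _)])

theorem y5_ne : y5 M ≠ 1 := fun h => by
  have := mat_y5_pow M 1
  rw [h, one_pow, M.mat_one] at this
  simpa [Y2] using congrFun (congrFun this 0) 1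

theorem phi_ne (σ : ι → F →+* F) {i j : ι} (hij : i ≠ j) :
    ∑ k ∈ Finset.range 5, TR M σ (y5 M ^ k) (Pi.single (fun _ => 0) 1) ≠ 0 := by
  intro h
  have h1 := congrFun h (Function.update (fun _ => 0) i 3)
  simp only [Finset.sum_apply, TR_apply, mulVec_single_one, col_apply, TM, mat_y5_pow, map_apply,
    Pi.zero_apply] at h1
  have e : ∀ (l : ι) (x : ZMod 2), σ l (ZMod.castHom (dvd_refl 2) F x) = ZMod.castHom (dvd_refl 2) F x :=
    fun l x => DFunLike.congr_fun (Subsingleton.elim ((σ l).comp _) _) x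
  simp only [e, ← map_prod, ← map_sum] at h1
  rw [map_eq_zero] at h1
  have e2 : ∀ k, ∏ l, (Y2 ^ k) (Function.update (fun _ => (0 : Fin 4)) i 3 l) 0 =
      (Y2 ^ k) 3 0 * (Y2 ^ k) 0 0 := fun k => by
    rw [← Finset.mul_prod_erase _ _ (Finset.mem_univ i), Function.update_self, Finset.prod_congr rfl
      fun l hl => by rw [Function.update_of_ne (Finset.ne_of_mem_erase hl)], Finset.prod_const]
    congr 1
    have : (Finset.univ.erase i).card ≠ 0 :=
      Finset.card_ne_zero.2 ⟨j, Finset.mem_erase.2 ⟨hij.symm, Finset.mem_univ _⟩⟩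
    generalize (Y2 ^ k) 0 0 = x
    fin_cases x
    · exact zero_pow this
    · exact one_pow _
  simp only [e2] at h1
  revert h1
  decide

end Cfsg.Agent.H9.Mar
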