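import Cfsg.Agent.H9.Mar1

/-! Modules for a Suzuki group on which the elements of odd order act without fixed points contain
a natural module. -/

set_option autoImplicit false
set_option linter.style.haveILetI false

namespace Cfsg.Agent.H9.Mar

open Matrix Cfsg.Agent.H15.Sz Polynomial

variable {L : Type*} [Group L] {F : Type*} [Field F] [Fintype F]

theorem eigen {Y : Type*} [AddCommGroup Y] [Module F Y] [Nontrivial Y] (T : Module.End F Y)
    (h : T ^ (Fintype.card F - 1) = 1) : ∃ c : F, ∃ v, v ≠ 0 ∧ T v = c • v := by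
  classical
  by_contra hne
  push Not at hne
  have key : ∀ s : Multiset F, Function.Injective (aeval T (s.map fun a => X - C a).prod) := by
    intro s
    induction s using Multiset.induction with
    | empty => intro a b h; simpa using h
    | cons a s ih =>
      rw [Multiset.map_cons, Multiset.prod_cons, map_mul, Module.End.coe_mul]
      refine Function.Injective.comp ?_ ih
      rw [injective_iff_map_eq_zero]
      intro v hv
      by_contra h0
      apply hne a v h0
      simpa [sub_eq_zero, Module.algebraMap_end_apply] using hv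
  have h1 : 1 < Fintype.card F := Fintype.one_lt_card
  have h2 := key (roots (X ^ Fintype.card F - X : F[X]))
  rw [prod_multiset_X_sub_C_of_monic_of_roots_card_eq
    (monic_X_pow_sub (by rw [degree_X]; exact_mod_cast h1))
    (by rw [FiniteField.roots_X_pow_card_sub_X, FiniteField.X_pow_card_sub_X_natDegree_eq _ h1]; rfl),
    map_sub, map_pow, aeval_X, show Fintype.card F = Fintype.card F - 1 + 1 by omega, pow_succ, h,
    one_mul, sub_self] at h2
  obtain ⟨v, hv⟩ := exists_ne (0 : Y)
  exact hv (h2 (by simp))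

noncomputable instance instFU : Fintype Fˣ := Fintype.ofFinite _

variable [CharP F 2] (M : Model L F)

/-- The operator identities coming from fixed point free action. -/
structure Hy {R Y : Type*} [Semiring R] [AddCommGroup Y] [Module R Y] (r : L →* Module.End R Y) :
    Prop where
  D : ∀ y, ∑ a : Fˣ, r (M.D a) y = 0
  y : ∀ y, ∑ k ∈ Finset.range 5, r (y5 M ^ k) y = 0

variable {M}

theorem Hy.of_inj {R R' Y Y' : Type*} [Semiring R] [AddCommGroup Y] [Module R Y] [Semiring R']
    [AddCommGroup Y'] [Module R' Y'] {r : L →* Module.End R Y} {r' : L →* Module.End R' Y'}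
    (h : Hy M r) (f : Y' →+ Y) (hf : Function.Injective f) (e : ∀ g y, f (r' g y) = r g (f y)) :
    Hy M r' :=
  ⟨fun y => hf (by rw [map_sum, map_zero, ← h.D (f y)]; simp only [e]),
    fun y => hf (by rw [map_sum, map_zero, ← h.y (f y)]; simp only [e])⟩

theorem Hy.of_surj {R R' Y Y' : Type*} [Semiring R] [AddCommGroup Y] [Module R Y] [Semiring R']
    [AddCommGroup Y'] [Module R' Y'] {r : L →* Module.End R Y} {r' : L →* Module.End R' Y'}
    (h : Hy M r) (f : Y →+ Y') (hf : Function.Surjective f) (e : ∀ g y, f (r g y) = r' g (f y)) :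
    Hy M r' :=
  ⟨fun y => by obtain ⟨y, rfl⟩ := hf y; simp only [← e]; rw [← map_sum, h.D, map_zero],
    fun y => by obtain ⟨y, rfl⟩ := hf y; simp only [← e]; rw [← map_sum, h.y, map_zero]⟩

variable (M)

section
variable {Y : Type*} [AddCommGroup Y] [Module F Y] (r : Representation F L Y)

/-- Borel eigenfunctionals -/
structure BE (k : Fˣ) (c : F) (f : Module.Dual F Y) : Prop where
  S : ∀ a b y, f (r (M.S a b) y) = f y
  D : ∀ y, f (r (M.D k) y) = c * f y

theorem exists_BE [Finite Y] [Nontrivial Y] (k : Fˣ) : ∃ c f, f ≠ 0 ∧ BE M r k c f := by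
  haveI : Finite (Module.Dual F Y) := Finite.of_injective _ DFunLike.coe_injective
  obtain ⟨f0, h0, hf⟩ := exists_fix M r.dual
  let U : Submodule F (Module.Dual F Y) :=
    { carrier := {f | ∀ a b y, f (r (M.S a b) y) = f y}
      add_mem' := fun ha hb a b y => by simp only [LinearMap.add_apply, ha a b y, hb a b y]
      zero_mem' := fun _ _ _ => rfl
      smul_mem' := fun c f hf a b y => by simp only [LinearMap.smul_apply, hf a b y] }
  have hf0 : f0 ∈ U := fun a b y => by
    have := LinearMap.congr_fun (hf a (b + M.θ a * a)) y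
    rw [← M.S_inv] at this
    simpa [Module.Dual.transpose_apply] using this
  haveI : Nontrivial U := ⟨⟨⟨f0, hf0⟩, 0, fun h => h0 (congrArg Subtype.val h)⟩⟩
  have hU : ∀ f ∈ U, r.dual (M.D k⁻¹) f ∈ U := fun f hf a b y => by
    simp only [Representation.dual_apply, map_inv, inv_inv, Module.Dual.transpose_apply,
      LinearMap.comp_apply]
    rw [← Module.End.mul_apply, ← map_mul, M.D_mul_S, map_mul, Module.End.mul_apply, hf]
  obtain ⟨c, f, h1, h2⟩ := eigen (F := F) (Y := U) ((r.dual (M.D k⁻¹)).restrict hU) (by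
    rw [Module.End.pow_restrict, LinearMap.ext_iff]
    intro f
    refine Subtype.ext ?_
    rw [LinearMap.restrict_coe_apply, ← map_pow, ← map_pow, ← Nat.card_eq_fintype_card,
      ← Nat.card_units, pow_card_eq_one', map_one, map_one]
    rfl)
  refine ⟨c, f, fun h => h1 (Subtype.ext h), f.2, fun y => ?_⟩
  simpa [Module.Dual.transpose_apply] using LinearMap.congr_fun (congrArg Subtype.val h2) y

variable {M r} {k : Fˣ} {c : F} {f : Module.Dual F Y}

omit [Fintype F] in
theorem BE.pow (h : BE M r k c f) (n : ℕ) (y : Y) : f (r (M.D (k ^ n)) y) = c ^ n * f y := by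
  induction n generalizing y with
  | zero => simp
  | succ n ih => rw [pow_succ', map_mul, map_mul, Module.End.mul_apply, h.D, ih, pow_succ', mul_assoc]

end

/-- Bruhat decomposition -/
theorem bruhat {k : Fˣ} (hk : ∀ a, a ∈ Submonoid.powers k) (g : L) :
    (g • M.inf = M.inf ∧ ∃ a b n, g = M.S a b * M.D (k ^ n)) ∨
      (g • M.inf ≠ M.inf ∧ ∃ a b n x y, g = M.S a b * M.D (k ^ n) * M.W * M.S x y) := by
  by_cases hg : g • M.inf = M.inf
  · obtain ⟨a, b, d, e⟩ := M.exists_SD hg
    obtain ⟨n, rfl⟩ := hk d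
    exact Or.inl ⟨hg, a, b, n, e⟩
  · obtain ⟨h, hh, y, ⟨x, z, rfl⟩, e⟩ := H15.RO.exists_HtQ M.setup hg
    obtain ⟨a, b, d, rfl⟩ := M.exists_SD hh
    obtain ⟨n, rfl⟩ := hk d
    exact Or.inr ⟨hg, a, b, n, x, z, e⟩

variable {M} {Y : Type*} [AddCommGroup Y] [Module F Y] {r : Representation F L Y}
  {Y' : Type*} [AddCommGroup Y'] [Module F Y'] {r' : Representation F L Y'}
  {k : Fˣ} {c : F} {f : Module.Dual F Y} {f' : Module.Dual F Y'}

theorem BE.det (h : BE M r k c f) (h' : BE M r' k c f') (hk : ∀ a, a ∈ Submonoid.powers k)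
    {y : Y} {y' : Y'} (hy : ∀ a b, r (M.S a b) y = y) (hy' : ∀ a b, r' (M.S a b) y' = y')
    (e1 : f y = f' y') (e2 : f (r M.W y) = f' (r' M.W y')) (g : L) : f (r g y) = f' (r' g y') := by
  rcases bruhat M hk g with ⟨-, a, b, n, rfl⟩ | ⟨-, a, b, n, x, z, rfl⟩
  · simp only [map_mul, Module.End.mul_apply, h.S, h'.S, h.pow, h'.pow, e1]
  · simp only [map_mul, Module.End.mul_apply, h.S, h'.S, h.pow, h'.pow, hy, hy', e2]

theorem BE.big [Finite Y] [Nontrivial Y] (h : BE M r k c f) (hk : ∀ a, a ∈ Submonoid.powers k)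
    (hc0 : c ≠ 0) (hc : c ≠ 1) (hinj : ∀ y, (∀ g, f (r g y) = 0) → y = 0) :
    ∃ y, (∀ a b, r (M.S a b) y = y) ∧ f y = 0 ∧ f (r M.W y) = 1 := by
  classical
  suffices H : ∃ y, (∀ a b, r (M.S a b) y = y) ∧ f y = 0 ∧ f (r M.W y) ≠ 0 by
    obtain ⟨y, h1, h2, h3⟩ := H
    exact ⟨(f (r M.W y))⁻¹ • y, fun a b => by rw [map_smul, h1], by rw [map_smul, h2, smul_zero],
      by rw [map_smul, map_smul, smul_eq_mul, inv_mul_cancel₀ h3]⟩
  obtain ⟨y, h0, hy⟩ := exists_fix M r
  by_cases hb : f (r M.W y) = 0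
  · have ha : f y ≠ 0 := fun ha => h0 (hinj y fun g => by
      simpa using h.det h hk hy (y' := 0) (by simp) (by simpa using ha) (by simpa using hb) g)
    haveI := M.finite
    haveI := Fintype.ofFinite M.Q
    refine ⟨∑ s : M.Q, r s (r M.W y), fun a b => ?_, ?_, ?_⟩
    · rw [map_sum]
      refine Fintype.sum_equiv (Equiv.mulLeft ⟨_, M.S_mem a b⟩) _ _ fun s => ?_
      rw [← Module.End.mul_apply, ← map_mul]; rfl
    · rw [map_sum]
      refine Finset.sum_eq_zero fun s _ => ?_
      obtain ⟨a, b, e⟩ := s.2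
      rw [e, h.S, hb]
    · rw [map_sum, map_sum, Finset.sum_eq_single 1 (fun s _ hs => ?_) (by simp)]
      · rwa [OneMemClass.coe_one, map_one, Module.End.one_apply, ← Module.End.mul_apply, ← map_mul,
          M.W_mul_W, map_one, Module.End.one_apply]
      · rcases bruhat M hk (M.W * s * M.W) with ⟨e, -⟩ | ⟨-, a, b, n, x, z, e⟩
        · exact absurd e (H15.RO.txt_not_fix M.setup s.2 fun e => hs (Subtype.ext e))
        · rw [← Module.End.mul_apply, ← Module.End.mul_apply, ← map_mul, ← map_mul, e]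
          simp only [map_mul, Module.End.mul_apply, h.S, h.pow, hy, hb, mul_zero]
  · refine ⟨r (M.D k) y - c • y, fun a b => ?_, by simp [h.D], ?_⟩
    · rw [map_sub, map_smul, hy]
      congr 1
      have : M.S a b * M.D k = M.D k * ((M.D k⁻¹) * M.S a b * (M.D k⁻¹)⁻¹) := by
        simp only [map_inv]; group
      rw [← Module.End.mul_apply, ← map_mul, this, M.D_conj_S, map_mul, Module.End.mul_apply, hy]
    · have e : c * f (r M.W (r (M.D k) y)) = f (r M.W y) := by
        rw [← h.D, ← Module.End.mul_apply, ← Module.End.mul_apply, ← map_mul, ← map_mul, mul_assoc,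
          M.W_mul_D, ← mul_assoc, ← map_mul, mul_inv_cancel, map_one, one_mul]
      intro h3
      simp only [map_sub, map_smul, smul_eq_mul, sub_eq_zero] at h3
      rw [h3, ← mul_assoc, mul_eq_right₀ hb, mul_self_eq_one_iff, CharTwo.neg_eq, or_self] at e
      exact hc e

theorem card_units_cast : ((Fintype.card Fˣ : ℕ) : F) = 1 := by
  have h1 : 1 ≤ Fintype.card F := Fintype.card_pos
  rw [← Nat.card_eq_fintype_card, Nat.card_units, Nat.card_eq_fintype_card, Nat.cast_sub h1, FiniteField.cast_card_eq_zero, Nat.cast_one, zero_sub,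
    CharTwo.neg_eq]

theorem key_irr [Finite Y] [Nontrivial Y] (h : Hy M r)
    (hirr : ∀ U : Submodule F Y, Inv r U → U ≠ ⊥ → U = ⊤) :
    ∃ j : (Fin 4 → F) →+ Y, j ≠ 0 ∧ (∀ g v, j (M.mat g *ᵥ v) = r g (j v)) ∧
      ∀ (t : F) v, ∃ w, j w = t • j v := by
  classical
  obtain ⟨k, hk⟩ := IsCyclic.exists_monoid_generator (α := Fˣ)
  obtain ⟨c, f, hf0, hf⟩ := exists_BE M r k
  let J : Y →ₗ[F] (L → F) := LinearMap.pi fun g => f ∘ₗ r g
  have hJ : ∀ y g, J y g = f (r g y) := fun _ _ => rfl
  have hinj : ∀ y, (∀ g, f (r g y) = 0) → y = 0 := by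
    intro y hy
    by_contra hne
    have := hirr (LinearMap.ker J) (fun g z hz => funext fun x => by
      have := congrFun hz (x * g)
      rwa [hJ, map_mul] at this) (fun hb => hne (by
        rw [← Submodule.mem_bot F, ← hb]; exact funext hy))
    refine hf0 (LinearMap.ext fun z => ?_)
    have h1 : z ∈ LinearMap.ker J := this ▸ Submodule.mem_top
    simpa [hJ] using congrFun h1 1
  have hc0 : c ≠ 0 := fun h0 => hf0 (LinearMap.ext fun y => by
    have := hf.D (r (M.D k⁻¹) y)
    rwa [h0, zero_mul, ← Module.End.mul_apply, ← map_mul, ← map_mul, mul_inv_cancel, map_one,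
      map_one] at this)
  have hc : c ≠ 1 := fun h1 => hf0 (LinearMap.ext fun y => by
    have := congrArg f (h.D y)
    rw [map_sum, map_zero, Finset.sum_congr rfl (g := fun _ => f y) (fun a _ => by
      obtain ⟨n, rfl⟩ := hk a
      rw [hf.pow, h1, one_pow, one_mul]), Finset.sum_const, Finset.card_univ, nsmul_eq_mul,
      card_units_cast, one_mul] at this
    exact this)
  -- the twisted tensor product with the same weight
  obtain ⟨N₀, hN₀⟩ := hk (Units.mk0 c hc0)⁻¹
  set N := N₀ % orderOf k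
  have hN : N < orderOf k := Nat.mod_lt _ (orderOf_pos k)
  have hNc : ((k : F)⁻¹) ^ N = c := by
    have : k ^ N = (Units.mk0 c hc0)⁻¹ := by rw [pow_mod_orderOf]; exact hN₀
    rw [inv_pow, ← Units.val_pow_eq_pow_val, this]; simp
  let I := N.bitIndices.toFinset
  let σ : I → F →+* F := fun i => iterateFrobenius F 2 i
  have hσ : Function.Injective σ := fun i j e => by
    have h1 : k ^ 2 ^ (i : ℕ) = k ^ 2 ^ (j : ℕ) := Units.ext (by
      simpa [σ, iterateFrobenius_def] using DFunLike.congr_fun e (k : F))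
    have hb : ∀ i : I, 2 ^ (i : ℕ) ∈ Set.Iio (orderOf k) := fun i =>
      lt_of_le_of_lt (Nat.two_pow_le_of_mem_bitIndices (List.mem_toFinset.1 i.2)) hN
    exact Subtype.ext (Nat.pow_right_injective le_rfl (pow_injOn_Iio_orderOf (hb i) (hb j) h1))
  let f' : Module.Dual F ((I → Fin 4) → F) := LinearMap.proj fun _ => 3
  have row : ∀ (A : Matrix (Fin 4) (Fin 4) F), (∀ l, l ≠ 3 → A 3 l = 0) → ∀ v,
      (TM σ A *ᵥ v) (fun _ => 3) = (∏ i, σ i (A 3 3)) * v fun _ => 3 := fun A hA v => by
    simp only [mulVec, dotProduct]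
    rw [Finset.sum_eq_single (fun _ => 3) (fun d _ hd => ?_) (by simp)]
    · rfl
    · obtain ⟨i, hi⟩ := Function.ne_iff.1 hd
      rw [TM, Finset.prod_eq_zero (Finset.mem_univ i) (by rw [hA _ hi, map_zero]), zero_mul]
  have hf' : BE M (TR M σ) k c f' := ⟨fun a b v => by
      change (TM σ _ *ᵥ v) _ = v _
      rw [M.mat_S, row _ (fun l hl => by fin_cases l <;> simp [Tw.Sm] at hl ⊢)]
      simp [Tw.Sm], fun v => by
      change (TM σ _ *ᵥ v) _ = c * v _
      rw [M.mat_D, row _ (fun l hl => by fin_cases l <;> simp [Tw.Dm] at hl ⊢), ← hNc]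
      congr 1
      simp only [σ, iterateFrobenius_def]
      rw [Finset.prod_coe_sort I (fun i => (M.Dm k 3 3) ^ 2 ^ i), Finset.prod_pow_eq_pow_sum,
        Finset.sum_toFinset_bitIndices_two_pow]
      rfl⟩
  let J' : ((I → Fin 4) → F) →ₗ[F] (L → F) := LinearMap.pi fun g => f' ∘ₗ TR M σ g
  have hJ' : ∀ y g, J' y g = f' (TR M σ g y) := fun _ _ => rfl
  have hinj' : ∀ y, (∀ g, f' (TR M σ g y) = 0) → y = 0 := by
    intro y hy
    by_contra hne
    have := irr M hσ (U := LinearMap.ker J') (fun g z hz => funext fun x => by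
      have := congrFun hz (x * g)
      rwa [hJ', map_mul] at this) (fun hb => hne (by
        rw [← Submodule.mem_bot F, ← hb]; exact funext hy))
    have h1 : (fun _ => 1 : (I → Fin 4) → F) ∈ LinearMap.ker J' := this ▸ Submodule.mem_top
    simpa [hJ', f'] using congrFun h1 1
  obtain ⟨y, hy1, hy2, hy3⟩ := hf.big hk hc0 hc hinj
  obtain ⟨v, hv1, hv2, hv3⟩ := hf'.big hk hc0 hc hinj'
  have hJi : Function.Injective J := (injective_iff_map_eq_zero J).2 fun y hy =>
    hinj y (congrFun hy)
  have hle : (LinearMap.range J).comap J' = ⊤ := by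
    refine irr M hσ (fun g z ⟨x, hx⟩ => ⟨r g x, funext fun l => ?_⟩) (fun hb => ?_)
    · have := congrFun hx (l * g)
      rwa [hJ, hJ', map_mul, map_mul] at this
    · have : v ∈ (LinearMap.range J).comap J' :=
        ⟨y, funext (hf.det hf' hk hy1 hv1 (hy2.trans hv2.symm) (hy3.trans hv3.symm))⟩
      rw [hb, Submodule.mem_bot] at this
      simp [this] at hv3
  let j : ((I → Fin 4) → F) →ₗ[F] Y := (LinearEquiv.ofInjective J hJi).symm.toLinearMap ∘ₗ
    J'.codRestrict _ fun z => (hle ▸ Submodule.mem_top : z ∈ (LinearMap.range J).comap J')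
  have hj : ∀ z, J (j z) = J' z := fun z =>
    congrArg Subtype.val ((LinearEquiv.ofInjective J hJi).apply_symm_apply _)
  have hje : ∀ g z, j (TR M σ g z) = r g (j z) := fun g z => hJi (funext fun l => by
    have := congrFun (hj z) (l * g)
    rw [hJ, hJ', map_mul, map_mul] at this
    rw [hj]; exact this.symm)
  have hji : Function.Injective j := (injective_iff_map_eq_zero j).2 fun z hz => hinj' z fun g => by
    rw [← hJ', ← hj, hz, map_zero]; rfl
  have hy := h.of_inj j.toAddMonoidHom hji hje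
  haveI : Subsingleton I := ⟨fun a b => by_contra fun hab => phi_ne M σ hab (hy.y _)⟩
  have hI : Nonempty I := by
    by_contra hI
    rw [not_nonempty_iff] at hI
    apply hc
    have := hf'.D fun _ => 1
    change (TM σ _ *ᵥ _) _ = c * 1 at this
    rw [M.mat_D, row _ (fun l hl => by fin_cases l <;> simp [Tw.Dm] at hl ⊢)] at this
    simpa using this.symm
  obtain ⟨i⟩ := hI
  haveI : Unique I := uniqueOfSubsingleton i
  let e : (Fin 4 → F) →+ ((I → Fin 4) → F) :=
    { toFun := fun v d => σ default (v (d default))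
      map_zero' := funext fun d => by simp
      map_add' := fun v w => funext fun d => by simp }
  have hes : Function.Surjective e := fun z => by
    have hs : Function.Surjective (σ default) := Finite.surjective_of_injective (σ default).injective
    choose s hs using hs
    refine ⟨fun l => s (z fun _ => l), funext fun d => ?_⟩
    change σ default (s _) = _
    rw [hs]; congr 1; funext l; rw [Subsingleton.elim l default]
  refine ⟨j.toAddMonoidHom.comp e, fun h0 => ?_, fun g v => ?_, fun t v => ?_⟩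
  · obtain ⟨w, hw⟩ := hes v
    have h1 : j (e w) = 0 := DFunLike.congr_fun h0 w
    rw [hw, map_eq_zero_iff _ hji] at h1
    simp [h1] at hv3
  · change j (e _) = r g (j (e v))
    rw [← hje]
    congr 1
    funext d
    change σ default (∑ l, M.mat g (d default) l * v l) = ∑ d', TM σ (M.mat g) d d' * e v d'
    rw [map_sum]
    refine (Fintype.sum_equiv (Equiv.funUnique I (Fin 4)) _ _ fun d' => ?_).symm
    simp [TM, e]
  · obtain ⟨w, hw⟩ := hes (t • e v)
    exact ⟨w, by change j (e w) = t • j (e v); rw [hw, map_smul]⟩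

theorem keyF [Finite Y] [Nontrivial Y] (h : Hy M r) :
    ∃ j : (Fin 4 → F) →+ Y, j ≠ 0 ∧ (∀ g v, j (M.mat g *ᵥ v) = r g (j v)) ∧
      ∀ (t : F) v, ∃ w, j w = t • j v := by
  haveI : Finite (Submodule F Y) := Finite.of_injective _ SetLike.coe_injective
  obtain ⟨U, ⟨hU, hU0⟩, hmin⟩ := (wellFounded_lt (α := Submodule F Y)).has_min
    {U | Inv r U ∧ U ≠ ⊥} ⟨⊤, fun _ _ _ => trivial, top_ne_bot⟩
  haveI := Submodule.nontrivial_iff_ne_bot.2 hU0
  obtain ⟨j, h0, h1, h2⟩ := key_irr (r := r.subrepresentation U hU)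
    (h.of_inj U.subtype.toAddMonoidHom Subtype.val_injective fun _ _ => rfl) (fun V hV hV0 => by
      by_contra hne
      refine hmin (V.map U.subtype) ⟨?_, ?_⟩ ?_
      · rintro g _ ⟨x, hx, rfl⟩
        exact ⟨_, hV g hx, rfl⟩
      · exact ((Submodule.map_bot U.subtype).symm.trans_lt
          (Submodule.map_strictMono_of_injective U.injective_subtype (bot_lt_iff_ne_bot.2 hV0))).ne'
      · exact (Submodule.map_strictMono_of_injective U.injective_subtype
          (lt_top_iff_ne_top.2 hne)).trans_eq (Submodule.map_subtype_top U))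
  refine ⟨U.subtype.toAddMonoidHom.comp j, fun h => h0 (AddMonoidHom.ext fun v =>
    Subtype.ext (DFunLike.congr_fun h v)), fun g v => congrArg Subtype.val (h1 g v), fun t v => ?_⟩
  obtain ⟨w, hw⟩ := h2 t v
  exact ⟨w, congrArg Subtype.val hw⟩

/-- coinduced module -/
def Co (V X : Type*) [AddCommGroup V] [AddCommGroup X] := V →+ X

instance (V X : Type*) [AddCommGroup V] [AddCommGroup X] : AddCommGroup (Co V X) :=
  inferInstanceAs (AddCommGroup (V →+ X))

instance (V X : Type*) [AddCommGroup V] [AddCommGroup X] : FunLike (Co V X) V X :=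
  inferInstanceAs (FunLike (V →+ X) V X)

instance (V X : Type*) [AddCommGroup V] [AddCommGroup X] : AddMonoidHomClass (Co V X) V X :=
  inferInstanceAs (AddMonoidHomClass (V →+ X) V X)

instance (K V X : Type*) [Field K] [AddCommGroup V] [Module K V] [AddCommGroup X] :
    Module K (Co V X) where
  smul c φ := AddMonoidHom.comp φ (DistribSMul.toAddMonoidHom V c)
  one_smul φ := DFunLike.ext _ _ fun v => congrArg φ (one_smul K v)
  mul_smul a b φ := DFunLike.ext _ _ fun v => congrArg φ (by
    change (a * b) • v = b • a • v; rw [mul_comm, mul_smul])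
  smul_zero _ := rfl
  smul_add _ _ _ := rfl
  add_smul a b φ := DFunLike.ext _ _ fun v => by
    change φ ((a + b) • v) = φ (a • v) + φ (b • v); rw [add_smul, map_add]
  zero_smul φ := DFunLike.ext _ _ fun v => by change φ ((0 : K) • v) = 0; rw [zero_smul, map_zero]

theorem Co.smul_apply {K V X : Type*} [Field K] [AddCommGroup V] [Module K V] [AddCommGroup X]
    (c : K) (φ : Co V X) (v : V) : (c • φ) v = φ (c • v) := rfl

theorem Co.sum_apply {V X ι : Type*} [AddCommGroup V] [AddCommGroup X] (s : Finset ι)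
    (φ : ι → Co V X) (v : V) : (∑ i ∈ s, φ i) v = ∑ i ∈ s, φ i v :=
  AddMonoidHom.finset_sum_apply _ _ _

theorem key {X : Type*} [AddCommGroup X] [Finite X] [Nontrivial X] (h2 : ∀ x : X, 2 • x = 0)
    {ρ : Representation ℤ L X} (h : Hy M ρ) :
    ∃ φ : (Fin 4 → F) →+ X, φ ≠ 0 ∧ ∀ g v, φ (M.mat g *ᵥ v) = ρ g (φ v) := by
  let r : Representation F L (Co F X) :=
    { toFun := fun g =>
        { toFun := fun φ => AddMonoidHom.comp (ρ g).toAddMonoidHom φ
          map_add' := fun a b => DFunLike.ext _ _ fun v => map_add (ρ g) _ _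
          map_smul' := fun _ _ => rfl }
      map_one' := LinearMap.ext fun φ => DFunLike.ext _ _ fun v => by
        change ρ 1 (φ v) = φ v; rw [map_one]; rfl
      map_mul' := fun a b => LinearMap.ext fun φ => DFunLike.ext _ _ fun v => by
        change ρ (a * b) (φ v) = ρ a (ρ b (φ v)); rw [map_mul]; rfl }
  haveI : Finite (Co F X) := Finite.of_injective _ DFunLike.coe_injective
  haveI : Nontrivial (Co F X) := by
    obtain ⟨x, hx⟩ := exists_ne (0 : X)
    haveI : Fact (Nat.Prime 2) := Nat.fact_prime_two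
    letI : Module (ZMod 2) X := AddCommGroup.zmodModule h2
    letI : Algebra (ZMod 2) F := ZMod.algebra F 2
    obtain ⟨τ, hτ⟩ := Module.Projective.exists_dual_eq_one (ZMod 2) (one_ne_zero (α := F))
    refine ⟨⟨((LinearMap.toSpanSingleton (ZMod 2) X x) ∘ₗ τ).toAddMonoidHom, 0, fun e => hx ?_⟩⟩
    have : τ 1 • x = 0 := DFunLike.congr_fun e 1
    rwa [hτ, one_smul] at this
  obtain ⟨j, h0, h1, h3⟩ := keyF (r := r) (M := M)
    ⟨fun φ => DFunLike.ext _ _ fun v => by rw [Co.sum_apply]; exact h.D _,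
      fun φ => DFunLike.ext _ _ fun v => by rw [Co.sum_apply]; exact h.y _⟩
  refine ⟨(AddMonoidHom.eval 1).comp j, fun e => h0 (AddMonoidHom.ext fun v =>
    DFunLike.ext _ _ fun t => ?_), fun g v => DFunLike.congr_fun (h1 g v) 1⟩
  obtain ⟨w, hw⟩ := h3 t v
  have : j w 1 = 0 := DFunLike.congr_fun e w
  rwa [hw, Co.smul_apply, smul_eq_mul, mul_one] at this

end Cfsg.Agent.H9.Mar
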