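import Cfsg.Agent.H9.Mar2

/-! Martineau's theorem, module-theoretic part. -/

set_option autoImplicit false
set_option linter.style.haveILetI false

namespace Cfsg.Agent.H9.Mar

open Matrix Cfsg.Agent.H15.Sz

variable {L : Type*} [Group L] {F : Type*} [Field F] [CharP F 2] {M : Model L F}
  {X : Type*} [AddCommGroup X]

theorem add_dec (φ : (Fin 4 → F) →+ X) (v : Fin 4 → F) : φ v = φ (Pi.single 0 (v 0)) +
    φ (Pi.single 1 (v 1)) + φ (Pi.single 2 (v 2)) + φ (Pi.single 3 (v 3)) := by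
  rw [← Fin.sum_univ_four fun i => φ (Pi.single i (v i)), ← map_sum, Finset.univ_sum_single]

theorem add_ext (φ : (Fin 4 → F) →+ X) (h : ∀ (c : F) p, φ (c • M.vec (some p)) = 0) : φ = 0 := by
  have h3 : ∀ c, φ (Pi.single 3 c) = 0 := fun c => by
    have := h c (0, 0)
    rw [add_dec] at this
    simpa [Tw.vec] using this
  have h01 : ∀ b c, φ (Pi.single 0 (c * M.θ b)) + φ (Pi.single 1 (c * b)) = 0 := fun b c => by
    have := h c (0, b)
    rw [add_dec] at this
    simpa [Tw.vec, h3, Tw.N] using this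
  have h0 : ∀ c, φ (Pi.single 0 c) = 0 := fun c => by
    obtain ⟨b, hb0, hb1⟩ := M.big
    have hne : M.θ b - b ≠ 0 := fun e => (M.θ_fix (sub_eq_zero.1 e)).elim hb0 hb1
    have e1 := h01 b (c / (M.θ b - b))
    have e2 := h01 1 (c / (M.θ b - b) * b)
    rw [map_one, mul_one] at e2
    rw [← e2, add_left_inj, ← sub_eq_zero, ← map_sub, ← Pi.single_sub, ← mul_sub,
      div_mul_cancel₀ _ hne] at e1
    exact e1
  have h1 : ∀ c, φ (Pi.single 1 c) = 0 := fun c => by simpa [h0] using h01 1 c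
  have h2 : ∀ c, φ (Pi.single 2 c) = 0 := fun c => by
    have := h c (1, 0)
    rw [add_dec] at this
    simpa [Tw.vec, h3, h0] using this
  refine AddMonoidHom.ext fun v => ?_
  rw [add_dec, h0, h1, h2, h3]; simp

theorem add_ext' (φ : (Fin 4 → F) →+ X) (hφ : ∀ g v, φ v = 0 → φ (M.mat g *ᵥ v) = 0)
    (h : ∀ c : F, φ (c • M.vec none) = 0) : φ = 0 := by
  refine add_ext (M := M) φ fun c p => ?_
  obtain ⟨A, hA, e⟩ := M.exists_to (some p)
  obtain ⟨g, rfl⟩ := M.exists_ρ hA
  rw [← e, ← mulVec_smul]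
  exact hφ g _ (h c)

variable [Fintype F]

theorem caseA [Finite X] {ρ : Representation ℤ L X} (h : Hy M ρ) (h4 : ∀ x : X, 2 • 2 • x = 0)
    (x : X) : 2 • x = 0 := by
  classical
  by_contra hx
  let U : Submodule ℤ X := LinearMap.range ((2 : ℕ) • LinearMap.id)
  have hU : Inv ρ U := by
    rintro g _ ⟨y, rfl⟩
    exact ⟨ρ g y, (map_nsmul (ρ g) 2 y).symm⟩
  haveI : Nontrivial U := ⟨⟨⟨2 • x, x, rfl⟩, 0, fun e => hx (congrArg Subtype.val e)⟩⟩
  obtain ⟨ψ, h0, hψ⟩ := key (X := U) (ρ := ρ.subrepresentation U hU)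
    (by rintro ⟨_, y, rfl⟩; exact Subtype.ext (h4 y))
    (h.of_inj U.subtype.toAddMonoidHom Subtype.val_injective fun _ _ => rfl)
  let φ : (Fin 4 → F) →+ X := U.subtype.toAddMonoidHom.comp ψ
  have hφ : ∀ g v, φ (M.mat g *ᵥ v) = ρ g (φ v) := fun g v => congrArg Subtype.val (hψ g v)
  suffices H : φ = 0 from h0 (AddMonoidHom.ext fun v => Subtype.ext (DFunLike.congr_fun H v))
  refine add_ext' (M := M) φ (fun g v hv => by rw [hφ, hv, map_zero]) fun c => ?_
  obtain ⟨n, hn⟩ := (ψ (Pi.single 3 c)).2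
  replace hn : 2 • n = φ (Pi.single 3 c) := hn
  let a : Fˣ → Module.End ℤ X := fun k => 1 - ρ (M.S 0 (M.θ k))
  let d : Fˣ → Module.End ℤ X := fun k => ρ (M.D k)
  have had : ∀ k, a k * d k = d k * a 1 := fun k => by
    simp only [a, d, sub_mul, mul_sub, one_mul, mul_one, ← map_mul, M.D_mul_S, mul_zero,
      Units.val_one, map_one]
  have haa : ∀ k l, a k * a l = a l * a k := fun k l => by
    simp only [a, sub_mul, mul_sub, one_mul, mul_one, ← map_mul, M.S_zero_mul, add_comm (M.θ k)]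
    abel
  have hdd : ∀ k l, d k * d l = d l * d k := fun k l => by simp only [d, ← map_mul, mul_comm]
  have ha2 : ∀ k, a k * a k = 2 • a k := fun k => by
    simp only [a, sub_mul, mul_sub, one_mul, mul_one, ← map_mul, M.S_zero_mul, CharTwo.add_self_eq_zero,
      M.S_zero, map_one]
    abel
  have haφ : ∀ k v, a k (φ v) = φ (v - M.Sm 0 (M.θ k) *ᵥ v) := fun k v => by
    rw [map_sub, ← M.mat_S, hφ]; rfl
  have hdφ : ∀ k v, d k (φ v) = φ (M.Dm k *ᵥ v) := fun k v => by rw [← M.mat_D, hφ]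
  let T : Fˣ × Fˣ → X := fun p => (a p.1 * a p.2 * d p.2 * d p.1) n
  have hT0 : ∑ p, T p = 0 := by
    rw [Fintype.sum_prod_type]
    refine Finset.sum_eq_zero fun k _ => ?_
    simp only [T, mul_assoc (a k), had]
    simp only [Module.End.mul_apply]
    rw [← map_sum, h.D, map_zero]
  have hT2 : ∀ p, 2 • T p = 0 := fun p => by
    simp only [T, Module.End.mul_apply, ← map_nsmul, hn, hdφ, haφ]
    rw [← φ.map_zero]
    congr 1
    generalize M.Dm p.2 *ᵥ M.Dm p.1 *ᵥ Pi.single 3 c = u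
    ext i
    fin_cases i <;> simp [Tw.Sm, mulVec, dotProduct, Fin.sum_univ_four, vecHead, vecTail]
  rw [← Finset.sum_filter_add_sum_filter_not _ (fun p => p.1 = p.2), Finset.sum_involution
    (s := Finset.univ.filter fun p : Fˣ × Fˣ => ¬ p.1 = p.2) (fun p _ => p.swap) (fun p _ => by
      rw [← hT2 p, two_nsmul]
      congr 1
      simp only [T, Prod.fst_swap, Prod.snd_swap]
      rw [haa p.2, mul_assoc, hdd p.1, ← mul_assoc])
    (fun p hp _ e => (Finset.mem_filter.1 hp).2 (congrArg Prod.snd e))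
    (fun p hp => by simpa [eq_comm] using hp) (fun _ _ => rfl), add_zero,
    Finset.sum_bij' (t := Finset.univ) (g := fun k => T (k, k)) (fun p _ => p.1) (fun k _ => (k, k))
      (by simp) (by simp) (by simp +contextual [Prod.ext_iff]) (by simp)
      (fun p hp => by
        congr 1; exact Prod.ext rfl (Finset.mem_filter.1 hp).2.symm)] at hT0
  have e : ∀ k : Fˣ, T (k, k) = φ (c • M.vec none + (M.θ k / (k : F) ^ 2) • Pi.single 1 c) := fun k => by
    simp only [T, ha2, smul_mul_assoc, LinearMap.smul_apply]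
    simp only [Module.End.mul_apply, ← map_nsmul, hn, hdφ, haφ]
    congr 1
    ext i
    fin_cases i <;>
      simp [Tw.Sm, Tw.Dm, Tw.N, Tw.vec, mulVec, dotProduct, Fin.sum_univ_four, M.sq, CharTwo.neg_eq] <;>
      field_simp
  let χ : Fˣ →* F :=
    { toFun := fun k => M.θ k / (k : F) ^ 2
      map_one' := by simp
      map_mul' := fun k l => by simp only [Units.val_mul, map_mul]; field_simp }
  have hχ : ∑ k : Fˣ, M.θ k / (k : F) ^ 2 = 0 := sum_hom_units_eq_zero χ fun e => by
    obtain ⟨k, hk⟩ := M.exists_unit_ne_one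
    have : M.θ k / (k : F) ^ 2 = 1 := DFunLike.congr_fun e k
    exact hk (Units.ext (M.eq_one_of_sq_div k.ne_zero (by rw [← inv_div, this, inv_one])))
  simp only [e] at hT0
  rwa [← map_sum, Finset.sum_add_distrib, Finset.sum_const, ← Finset.sum_smul, hχ, zero_smul, add_zero,
    Finset.card_univ, ← Nat.cast_smul_eq_nsmul F, card_units_cast, one_smul] at hT0

theorem semi {μ : Representation ℤ L X} (B : (Fin 4 → F) →+ (Fin 4 → F) →+ X) (h0 : B ≠ 0)
    (hB : ∀ g v w, B (M.mat g *ᵥ v) (M.mat g *ᵥ w) = μ g (B v w)) :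
    ∃ (B : (Fin 4 → F) →+ (Fin 4 → F) →+ X) (σ : F →+* F), B ≠ 0 ∧
      (∀ g v w, B (M.mat g *ᵥ v) (M.mat g *ᵥ w) = μ g (B v w)) ∧
      ∀ (c : F) v w, B (c • v) w = B v (σ c • w) := by
  let U : Submodule F ((Fin 4 → F) →+ Co (Fin 4 → F) X) :=
    { carrier := {B | ∀ g v w, B (M.mat g *ᵥ v) (M.mat g *ᵥ w) = μ g (B v w)}
      add_mem' := fun {A B} ha hb g v w => by
        change A _ _ + B _ _ = μ g (A _ _ + B _ _); rw [ha, hb, map_add]
      zero_mem' := fun g v w => (map_zero (μ g)).symm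
      smul_mem' := fun c A ha g v w => by
        change A _ (c • _) = μ g (A _ (c • _)); rw [← mulVec_smul, ha] }
  haveI : Nontrivial U := ⟨⟨⟨B, hB⟩, 0, fun e => h0 (congrArg Subtype.val e)⟩⟩
  let R : F → Module.End F U := fun c =>
    { toFun := fun A => ⟨A.1.comp (DistribSMul.toAddMonoidHom _ c), fun g v w => by
        change A.1 (c • _) _ = μ g (A.1 (c • _) _); rw [← mulVec_smul, A.2]⟩
      map_add' := fun _ _ => rfl
      map_smul' := fun _ _ => rfl }
  have hR : ∀ (c : F) (n : ℕ) (A : U) v, ((R c ^ n) A).1 v = A.1 (c ^ n • v) := fun c n => by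
    induction n with
    | zero => intro A v; simp
    | succ n ih =>
      intro A v
      rw [pow_succ, Module.End.mul_apply, ih, pow_succ', mul_smul]; rfl
  obtain ⟨k, hk⟩ := IsCyclic.exists_monoid_generator (α := Fˣ)
  obtain ⟨l, A, hA0, hA⟩ := eigen (F := F) (R k) (LinearMap.ext fun A => Subtype.ext
    (AddMonoidHom.ext fun v => by rw [hR, FiniteField.pow_card_sub_one_eq_one _ k.ne_zero, one_smul]; rfl))
  have hex : ∀ c : F, ∃ s : F, ∀ v, A.1 (c • v) = s • A.1 v := fun c => by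
    by_cases hc : c = 0
    · exact ⟨0, fun v => by rw [hc, zero_smul, zero_smul, map_zero]⟩
    · obtain ⟨n, hn⟩ := hk (Units.mk0 c hc)
      have : c = (k : F) ^ n := (congrArg Units.val hn).symm
      refine ⟨l ^ n, fun v => ?_⟩
      rw [this, ← hR, Module.End.HasEigenvector.pow_apply
        ⟨Module.End.mem_eigenspace_iff.2 hA, hA0⟩]
      rfl
  choose s hs using hex
  obtain ⟨v, hv⟩ : ∃ v, A.1 v ≠ 0 := by
    by_contra hne; push Not at hne
    exact hA0 (Subtype.ext (AddMonoidHom.ext hne))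
  have uq : ∀ {a b : F}, a • A.1 v = b • A.1 v → a = b := fun e => smul_left_injective F hv e
  let σ : F →+* F :=
    { toFun := s
      map_one' := uq (by rw [← hs, one_smul, one_smul])
      map_mul' := fun a b => uq (by rw [← hs, mul_smul, hs, hs, mul_smul])
      map_zero' := uq (by rw [← hs, zero_smul, zero_smul, map_zero])
      map_add' := fun a b => uq (by rw [← hs, add_smul, map_add, hs, hs, add_smul]) }
  exact ⟨A.1, σ, fun e => hA0 (Subtype.ext e), A.2, fun c v w => DFunLike.congr_fun (hs c v) w⟩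

theorem caseB0 {μ : Representation ℤ L X} (h : Hy M μ) (B : (Fin 4 → F) →+ (Fin 4 → F) →+ X)
    (hB : ∀ g v w, B (M.mat g *ᵥ v) (M.mat g *ᵥ w) = μ g (B v w)) : B = 0 := by
  classical
  by_contra h0
  obtain ⟨B, σ, h0, hB, hσ⟩ := semi B h0 hB
  apply h0
  by_cases hs : σ = RingHom.id F
  · subst hs
    have h1 : ∀ t : F, B (M.vec none) (t • M.vec (some (0, 0))) = 0 := fun t => by
      have := h.D (B (M.vec none) (t • M.vec (some (0, 0))))
      rw [Finset.sum_congr rfl (g := fun _ => B (M.vec none) (t • M.vec (some (0, 0)))) fun a _ => by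
        rw [← hB, M.mat_D, mulVec_smul, M.Dm_vec_none, M.Dm_vec_some a.ne_zero, hσ, smul_smul,
          smul_smul, mul_zero, mul_zero, RingHom.id_apply, mul_right_comm, mul_inv_cancel₀ a.ne_zero,
          one_mul], Finset.sum_const, Finset.card_univ, ← map_nsmul, ← Nat.cast_smul_eq_nsmul F,
        card_units_cast, one_smul] at this
      exact this
    have h2 : B (M.vec none) = 0 := add_ext (M := M) _ fun c p => by
      have := hB (M.S p.1 p.2) (M.vec none) (c • M.vec (some (0, 0)))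
      rw [h1, map_zero, M.mat_S, mulVec_smul, M.Sm_vec_none, M.Sm_vec_some] at this
      simpa using this
    refine add_ext' (M := M) B (fun g v hv => AddMonoidHom.ext fun w => ?_) fun c =>
      AddMonoidHom.ext fun w => by rw [hσ, h2]; rfl
    have := hB g v (M.mat g⁻¹ *ᵥ w)
    rwa [mulVec_mulVec, ← M.mat_mul, mul_inv_cancel, M.mat_one, one_mulVec, hv,
      AddMonoidHom.zero_apply, map_zero] at this
  · let τ : Fin 2 → F →+* F := ![RingHom.id F, σ]
    have hτ : Function.Injective τ := fun i j e => by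
      fin_cases i <;> fin_cases j
      · rfl
      · exact absurd e.symm hs
      · exact absurd e hs
      · rfl
    let β : ((Fin 2 → Fin 4) → F) →+ X :=
      { toFun := fun T => ∑ e, B (Pi.single (e 1) 1) (Pi.single (e 0) (T e))
        map_zero' := by simp
        map_add' := fun S T => by simp [Pi.single_add, Finset.sum_add_distrib] }
    have hβ1 : ∀ e t, β (Pi.single e t) = B (Pi.single (e 1) 1) (Pi.single (e 0) t) := fun e t => by
      change ∑ e' : Fin 2 → Fin 4, B (Pi.single (e' 1) 1)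
        (Pi.single (e' 0) ((Pi.single e t : (Fin 2 → Fin 4) → F) e')) = _
      rw [Finset.sum_eq_single e (fun e' _ h => by simp [Pi.single_eq_of_ne h]) (by simp),
        Pi.single_eq_same]
    have hβ : ∀ g T, β (TR M τ g T) = μ g (β T) := fun g T => by
      rw [← Finset.univ_sum_single T]
      simp only [map_sum]
      refine Finset.sum_congr rfl fun e _ => ?_
      rw [hβ1, ← hB, ← Finset.univ_sum_single (M.mat g *ᵥ Pi.single (e 1) 1),
        ← Finset.univ_sum_single (M.mat g *ᵥ Pi.single (e 0) (T e))]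
      simp only [map_sum, AddMonoidHom.finset_sum_apply]
      rw [← Fintype.sum_prod_type']
      refine Fintype.sum_equiv (finTwoArrowEquiv (Fin 4)) (fun e' => B (Pi.single (e' 1) 1)
        (Pi.single (e' 0) (TR M τ g (Pi.single e (T e)) e'))) _ fun e' => ?_
      change B _ _ = B (Pi.single (e' 1) ((M.mat g *ᵥ Pi.single (e 1) 1) (e' 1)))
        (Pi.single (e' 0) ((M.mat g *ᵥ Pi.single (e 0) (T e)) (e' 0)))
      rw [← mul_one ((M.mat g *ᵥ Pi.single (e 1) 1) (e' 1)), ← smul_eq_mul,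
        Pi.single_smul', hσ, ← Pi.single_smul']
      congr 2
      simp [TR_apply, TM, τ, mulVec_single]
      ring
    let U : Submodule F ((Fin 2 → Fin 4) → F) :=
      { carrier := {T | ∀ c : F, β (c • T) = 0}
        add_mem' := fun ha hb c => by rw [smul_add, map_add, ha, hb, add_zero]
        zero_mem' := fun c => by rw [smul_zero, map_zero]
        smul_mem' := fun c T hT d => by rw [smul_smul, hT] }
    have hU : U = ⊤ := irr M hτ (fun g T hT c => by rw [← map_smul, hβ, hT, map_zero]) fun hb =>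
      phi_ne M τ (i := 0) (j := 1) (by decide) (by
        rw [← Submodule.mem_bot F, ← hb]
        intro c
        simp only [Finset.smul_sum, ← map_smul, map_sum, hβ]
        exact h.y _)
    have hz : ∀ i j t, B (Pi.single i 1) (Pi.single j t) = 0 := fun i j t => by
      have : Pi.single ![j, i] t ∈ U := hU ▸ Submodule.mem_top
      simpa [hβ1] using this 1
    refine AddMonoidHom.ext fun v => AddMonoidHom.ext fun w => ?_
    change B v w = 0
    rw [← Finset.univ_sum_single v, ← Finset.univ_sum_single w]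
    simp only [map_sum, AddMonoidHom.finset_sum_apply]
    refine Finset.sum_eq_zero fun j _ => Finset.sum_eq_zero fun i _ => ?_
    rw [← mul_one (v i), ← smul_eq_mul, Pi.single_smul', hσ, ← Pi.single_smul', hz]

theorem reduce {W Y : Type*} [AddCommGroup W] [AddCommGroup Y] [Finite W] {ρ : Representation ℤ L W}
    (h : Hy M ρ) (h2 : ∀ x : W, 2 • x = 0) (act : L → Y → Y) (hact : ∀ g, Function.Surjective (act g))
    (μ : Representation ℤ L X) (B : W →+ Y →+ X) (h0 : B ≠ 0)
    (hB : ∀ g v w, B (ρ g v) (act g w) = μ g (B v w)) :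
    ∃ B : (Fin 4 → F) →+ Y →+ X, B ≠ 0 ∧ ∀ g v w, B (M.mat g *ᵥ v) (act g w) = μ g (B v w) := by
  let R : Submodule ℤ W := LinearMap.ker B.toIntLinearMap
  have hR : Inv ρ R := fun g v hv => AddMonoidHom.ext fun w => by
    obtain ⟨w, rfl⟩ := hact g w
    have hv' : B v = 0 := hv
    change B _ _ = 0
    rw [hB, hv', AddMonoidHom.zero_apply, map_zero]
  haveI : Nontrivial (W ⧸ R) := Submodule.Quotient.nontrivial_iff.2 fun e => h0 (AddMonoidHom.ext
    fun v => (e ▸ Submodule.mem_top : v ∈ R))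
  haveI : Finite (W ⧸ R) := Finite.of_surjective _ R.mkQ_surjective
  obtain ⟨φ, hφ0, hφ⟩ := key (X := W ⧸ R) (ρ := ρ.quotient R hR) (fun x => by
      obtain ⟨x, rfl⟩ := R.mkQ_surjective x
      rw [← map_nsmul, h2, map_zero])
    (h.of_surj R.mkQ.toAddMonoidHom R.mkQ_surjective fun _ _ => rfl)
  let B' := R.liftQ B.toIntLinearMap le_rfl
  refine ⟨B'.toAddMonoidHom.comp φ, fun e => hφ0 (AddMonoidHom.ext fun v => ?_), fun g v w => ?_⟩
  · have : B' (φ v) = 0 := DFunLike.congr_fun e v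
    rwa [← LinearMap.mem_ker, Submodule.ker_liftQ_eq_bot _ _ _ le_rfl, Submodule.mem_bot] at this
  · change B' (φ _) _ = μ g (B' (φ v) w)
    rw [hφ]
    obtain ⟨x, hx⟩ := R.mkQ_surjective (φ v)
    rw [← hx]
    exact hB g x w

theorem caseB {W : Type*} [AddCommGroup W] [Finite W] {ρ : Representation ℤ L W}
    (h : Hy M ρ) (h2 : ∀ x : W, 2 • x = 0) {μ : Representation ℤ L X} (hμ : Hy M μ)
    (B : W →+ W →+ X) (hB : ∀ g v w, B (ρ g v) (ρ g w) = μ g (B v w)) : B = 0 := by
  by_contra h0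
  obtain ⟨B1, h1, hB1⟩ := reduce h h2 (fun g => ρ g) (fun g w => ⟨ρ g⁻¹ w, by
    rw [← Module.End.mul_apply, ← map_mul, mul_inv_cancel, map_one]; rfl⟩) μ B h0 hB
  obtain ⟨B2, h3, hB2⟩ := reduce h h2 (fun g v => M.mat g *ᵥ v) (fun g w => ⟨M.mat g⁻¹ *ᵥ w, by
    simp only [mulVec_mulVec, ← M.mat_mul, mul_inv_cancel, M.mat_one, one_mulVec]⟩) μ B1.flip
    (fun e => h1 (AddMonoidHom.ext fun v => AddMonoidHom.ext fun w =>
      DFunLike.congr_fun (DFunLike.congr_fun e w) v)) (fun g v w => hB1 g w v)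
  exact h3 (caseB0 hμ B2 hB2)

end Cfsg.Agent.H9.Mar
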