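import Cfsg.Agent.H9.Mar3
import Cfsg.Agent.H4.CIT1

/-! Martineau's theorem: a normal `2`-subgroup of a CIT group with Suzuki quotient is elementary
abelian. -/

set_option autoImplicit false
set_option linter.style.haveILetI false

namespace Cfsg.Agent.H9.Mar

open Cfsg.Agent.H15.Sz Cfsg.Agent.H4 Subgroup
open scoped IsMulCommutative commutatorElement

universe u

variable {L : Type*} [Group L] {F : Type*} [Field F] [Fintype F] [CharP F 2] (M : Model L F)

theorem hy_of_fpf {X : Type*} [AddCommGroup X] (ρ : Representation ℤ L X)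
    (fpf : ∀ l, ¬ E2 l → ∀ a, ρ l a = a → a = 0) : Hy M ρ := by
  refine ⟨fun y => ?_, fun y => ?_⟩
  · obtain ⟨k, hk⟩ := M.exists_unit_ne_one
    refine fpf (M.D k) (fun e => hk (M.D_inj ((e.eq_one ?_).trans (map_one _).symm))) _ ?_
    · rw [orderOf_injective M.D M.D_inj]; exact Model.odd_orderOf_unit k
    · rw [map_sum]
      refine Fintype.sum_equiv (Equiv.mulLeft k) _ _ fun s => ?_
      rw [← Module.End.mul_apply, ← map_mul, ← map_mul]; rfl
  · refine fpf (y5 M) (fun e => y5_ne M (e.eq_one ?_)) _ ?_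
    · exact Odd.of_dvd_nat (by decide) (orderOf_dvd_of_pow_eq_one (y5_pow M))
    · simp only [map_sum, ← Module.End.mul_apply, ← map_mul, ← pow_succ']
      rw [Finset.sum_range_succ, Finset.sum_range_succ' _ 4, y5_pow, pow_zero]

/-- automorphisms of a commutative group as linear maps -/
def toEnd (X : Type*) [CommGroup X] : MulAut X →* Module.End ℤ (Additive X) where
  toFun g := (MonoidHom.toAdditive g.toMonoidHom).toIntLinearMap
  map_one' := rfl
  map_mul' _ _ := rfl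

theorem toEnd_apply {X : Type*} [CommGroup X] (g : MulAut X) (a : X) :
    toEnd X g (Additive.ofMul a) = Additive.ofMul (g a) := rfl

theorem exists_rep {G : Type*} [Group G] [Finite G] (h : CIT G) (π : G →* L)
    (hπ : Function.Surjective π) (A : Subgroup G) [A.Normal] [IsMulCommutative A] (hA : IsPGroup 2 A)
    (hc : ∀ n ∈ π.ker, ∀ a ∈ A, n * a = a * n) :
    ∃ ρ : Representation ℤ L (Additive A), Hy M ρ ∧
      ∀ g (a : A), ρ (π g) (Additive.ofMul a) = Additive.ofMul (MulAut.conjNormal g a) := by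
  have hk : π.ker ≤ (MulAut.conjNormal : G →* MulAut A).ker := fun n hn => MulEquiv.ext fun a =>
    Subtype.ext (by
      change n * (a : G) * n⁻¹ = a
      rw [hc n hn _ a.2, mul_inv_cancel_right])
  obtain ⟨φ, hφ⟩ : ∃ φ : L →* MulAut A, ∀ g, φ (π g) = MulAut.conjNormal g :=
    ⟨π.liftOfSurjective hπ ⟨_, hk⟩, fun g => MonoidHom.liftOfRightInverse_comp_apply _ _ _ _ _⟩
  have hρ : ∀ g (a : A), ((toEnd A).comp φ) (π g) (Additive.ofMul a) =
      Additive.ofMul (MulAut.conjNormal g a) := fun g a => by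
    rw [MonoidHom.comp_apply, toEnd_apply, hφ]
  refine ⟨(toEnd A).comp φ, hy_of_fpf M _ fun l hl a ha => ?_, hρ⟩
  obtain ⟨g, rfl⟩ := hπ l
  obtain ⟨a, rfl⟩ := Additive.ofMul.surjective a
  by_contra h0
  have e : g * (a : G) * g⁻¹ = a := congrArg Subtype.val (Additive.ofMul.injective ((hρ g a).symm.trans ha))
  obtain ⟨k, hk⟩ := h.e2 (a := (a : G)) (x := g) (fun e => h0 (congrArg Additive.ofMul (Subtype.ext e)))
    (E2.of_mem hA a.2) (mul_inv_eq_iff_eq_mul.1 e)
  exact hl ⟨k, by rw [← map_pow, hk, map_one]⟩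

include M in
theorem elem (n : ℕ) : ∀ (G : Type u) [Group G] [Finite G], Nat.card G = n → CIT G →
    ∀ π : G →* L, Function.Surjective π → IsPGroup 2 π.ker →
      (∀ x ∈ π.ker, ∀ y ∈ π.ker, x * y = y * x) ∧ ∀ x ∈ π.ker, x * x = 1 := by
  induction n using Nat.strong_induction_on with
  | _ n ih =>
  intro G _ _ hn h π hπ hN
  haveI : Fact (Nat.Prime 2) := Nat.fact_prime_two
  by_cases h1 : π.ker = ⊥
  · simp +contextual [h1]
  let Z : Subgroup G :=
    { carrier := {x | x ∈ π.ker ∧ x * x = 1 ∧ ∀ n ∈ π.ker, n * x = x * n}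
      mul_mem' := fun {a b} ha hb => ⟨mul_mem ha.1 hb.1, by
        rw [mul_assoc, ← mul_assoc b, ha.2.2 b hb.1, mul_assoc, hb.2.1, mul_one, ha.2.1],
        fun n hn => by rw [← mul_assoc, ha.2.2 n hn, mul_assoc, hb.2.2 n hn, mul_assoc]⟩
      one_mem' := ⟨one_mem _, one_mul _, fun n _ => by simp⟩
      inv_mem' := fun {a} ha => by rwa [inv_eq_of_mul_eq_one_right ha.2.1] }
  haveI hZ : Z.Normal := ⟨fun a ha g => ⟨(inferInstance : π.ker.Normal).conj_mem _ ha.1 g, by
      rw [conj_mul, ha.2.1, mul_one, mul_inv_cancel], fun m hm => by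
      have := ha.2.2 _ ((inferInstance : π.ker.Normal).conj_mem' _ hm g)
      calc m * (g * a * g⁻¹) = g * (g⁻¹ * m * g * a) * g⁻¹ := by group
        _ = _ := by rw [this]; group⟩⟩
  have hZN : Z ≤ π.ker := fun x hx => hx.1
  have hZ2 : IsPGroup 2 Z := hN.to_le hZN
  haveI : IsMulCommutative Z := ⟨⟨fun a b => Subtype.ext (b.2.2.2 a a.2.1)⟩⟩
  have hZ1 : Z ≠ ⊥ := by
    haveI := (nontrivial_iff_ne_bot _).2 h1
    haveI := hN.center_nontrivial
    obtain ⟨k, hk0, hk⟩ := ((hN.to_subgroup (center π.ker)).nontrivial_iff_card).1 inferInstance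
    obtain ⟨z, hz⟩ := exists_prime_orderOf_dvd_card' (G := center π.ker) 2
      (hk ▸ dvd_pow_self 2 hk0.ne')
    intro hb
    have : ((z : π.ker) : G) ∈ Z := ⟨(z : π.ker).2, by
      have := pow_orderOf_eq_one z
      rw [hz, sq] at this
      exact congrArg (fun x : center π.ker => ((x : π.ker) : G)) this, fun m hm =>
      congrArg Subtype.val (mem_center_iff.1 z.2 ⟨m, hm⟩)⟩
    rw [hb, mem_bot] at this
    rw [show z = 1 from Subtype.ext (Subtype.ext this), orderOf_one] at hz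
    exact absurd hz (by decide)
  let π' : G ⧸ Z →* L := QuotientGroup.lift Z π hZN
  have hπ' : Function.Surjective π' := fun l => let ⟨g, e⟩ := hπ l; ⟨g, e⟩
  have hN' : IsPGroup 2 π'.ker := by
    rw [QuotientGroup.ker_lift]; exact hN.map _
  obtain ⟨i1, i2⟩ := ih _ (by
    rw [← hn, card_eq_card_quotient_mul_card_subgroup Z]
    exact (Nat.lt_mul_iff_one_lt_right Nat.card_pos).2 ((one_lt_card_iff_ne_bot Z).2 hZ1))
    (G ⧸ Z) rfl (h.quot hZ2) π' hπ' hN'
  have hcomm : ∀ x ∈ π.ker, ∀ y ∈ π.ker, x * y = y * x := by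
    haveI : IsMulCommutative π'.ker := ⟨⟨fun a b => Subtype.ext (i1 a a.2 b b.2)⟩⟩
    obtain ⟨ρ, hρ, eρ⟩ := exists_rep M (h.quot hZ2) π' hπ' π'.ker hN' i1
    obtain ⟨μ, hμ, eμ⟩ := exists_rep M h π hπ Z hZ2 fun n hn a ha => ha.2.2 n hn
    have hm : ∀ x ∈ π.ker, ∀ y ∈ π.ker, ⁅x, y⁆ ∈ Z := fun x hx y hy => by
      rw [← QuotientGroup.eq_one_iff]
      exact (map_commutatorElement (QuotientGroup.mk' Z) x y).trans
        (commutatorElement_eq_one_iff_mul_comm.2 (i1 _ hx _ hy))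
    have ho : ∀ w : π'.ker, w.1.out ∈ π.ker := fun w => by
      have := w.2
      rwa [← w.1.out_eq'] at this
    let b : π'.ker → π'.ker → Z := fun v w => ⟨⁅v.1.out, w.1.out⁆, hm _ (ho v) _ (ho w)⟩
    have hb : ∀ x (hx : x ∈ π.ker) y (hy : y ∈ π.ker), (b ⟨x, hx⟩ ⟨y, hy⟩ : G) = ⁅x, y⁆ := by
      intro x hx y hy
      obtain ⟨s, hs⟩ := QuotientGroup.mk_out_eq_mul Z x
      obtain ⟨t, ht⟩ := QuotientGroup.mk_out_eq_mul Z y
      simp only [b, hs, ht, commutatorElement_def]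
      have e1 := s.2.2.2 _ (mul_mem hy t.2.1)
      have e2 := t.2.2.2 _ (inv_mem hx)
      calc x * s * (y * t) * (x * s)⁻¹ * (y * t)⁻¹ = x * (s * (y * t)) * (x * s)⁻¹ * (y * t)⁻¹ := by
            group
        _ = x * y * (t * x⁻¹) * (y * t)⁻¹ := by rw [← e1]; group
        _ = _ := by rw [← e2]; group
    have ind : ∀ w : π'.ker, ∃ x, ∃ hx : x ∈ π.ker, w = ⟨x, hx⟩ := fun w =>
      ⟨_, ho w, Subtype.ext w.1.out_eq'.symm⟩
    have b1 : ∀ u v w, b (u * v) w = b u w * b v w := fun u v w => by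
      obtain ⟨x, hx, rfl⟩ := ind u
      obtain ⟨y, hy, rfl⟩ := ind v
      obtain ⟨z, hz, rfl⟩ := ind w
      rw [mul_comm (b _ _)]
      refine Subtype.ext ((hb _ (mul_mem hx hy) _ hz).trans ?_)
      rw [coe_mul, hb, hb]
      calc ⁅x * y, z⁆ = x * ⁅y, z⁆ * x⁻¹ * ⁅x, z⁆ := by simp only [commutatorElement_def]; group
        _ = _ := by rw [(hm y hy z hz).2.2 x hx]; group
    have b2 : ∀ u v w, b u (v * w) = b u v * b u w := fun u v w => by
      obtain ⟨x, hx, rfl⟩ := ind u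
      obtain ⟨y, hy, rfl⟩ := ind v
      obtain ⟨z, hz, rfl⟩ := ind w
      refine Subtype.ext ((hb _ hx _ (mul_mem hy hz)).trans ?_)
      rw [coe_mul, hb, hb]
      calc ⁅x, y * z⁆ = ⁅x, y⁆ * (y * ⁅x, z⁆ * y⁻¹) := by simp only [commutatorElement_def]; group
        _ = _ := by rw [(hm x hx z hz).2.2 y hy]; group
    let B : Additive π'.ker →+ Additive π'.ker →+ Additive Z := AddMonoidHom.mk'
      (fun v => AddMonoidHom.mk' (fun w => Additive.ofMul (b v.toMul w.toMul)) fun _ _ => b2 _ _ _)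
      fun _ _ => AddMonoidHom.ext fun _ => b1 _ _ _
    have hB := caseB hρ (fun x => by
      rw [two_nsmul]; exact Subtype.ext (i2 _ x.toMul.2)) hμ B (fun l v w => by
        obtain ⟨g, rfl⟩ := hπ l
        obtain ⟨x, hx, e⟩ := ind v.toMul
        obtain ⟨y, hy, e'⟩ := ind w.toMul
        obtain rfl : v = Additive.ofMul ⟨x, hx⟩ := e
        obtain rfl : w = Additive.ofMul ⟨y, hy⟩ := e'
        rw [show π g = π' g from rfl, eρ, eρ]
        refine Eq.trans ?_ (eμ g _).symm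
        refine Subtype.ext ((hb _ ((inferInstance : π.ker.Normal).conj_mem _ hx g) _
          ((inferInstance : π.ker.Normal).conj_mem _ hy g)).trans ?_)
        change _ = g * (b ⟨x, hx⟩ ⟨y, hy⟩ : G) * g⁻¹
        rw [hb]; simp only [commutatorElement_def]; group)
    intro x hx y hy
    rw [← commutatorElement_eq_one_iff_mul_comm, ← hb x hx y hy]
    exact congrArg Subtype.val (DFunLike.congr_fun (DFunLike.congr_fun hB
      (Additive.ofMul ⟨x, hx⟩)) (Additive.ofMul ⟨y, hy⟩))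
  refine ⟨hcomm, fun x hx => ?_⟩
  haveI : IsMulCommutative π.ker := ⟨⟨fun a b => Subtype.ext (hcomm a a.2 b b.2)⟩⟩
  obtain ⟨ρ, hρ, -⟩ := exists_rep M h π hπ π.ker hN hcomm
  have := caseA hρ (fun y => by
    rw [two_nsmul, two_nsmul]
    have : (y.toMul : G) * y.toMul ∈ Z := (QuotientGroup.eq_one_iff _).1
      (i2 ((y.toMul : G) : G ⧸ Z) y.toMul.2)
    exact Subtype.ext this.2.1) (Additive.ofMul ⟨x, hx⟩)
  rw [two_nsmul] at this
  exact congrArg Subtype.val this

end Cfsg.Agent.H9.Mar
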