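import Cfsg.Agent.H5.Ind3
import Cfsg.Agent.H4.Integral

/-! An irreducible principal-series character of a rank one group. -/

set_option autoImplicit false
set_option linter.style.haveILetI false

namespace Cfsg.Agent.H9.R1C

open Subgroup Cfsg Cfsg.Agent.H4 Cfsg.Agent.H5
open scoped ComplexConjugate

variable {G : Type*} [Group G]

theorem eq_one_of_odd {D : Type*} [Group D] [Finite D] (ho : Odd (Nat.card D)) {x : D}
    (h : IsConj x x⁻¹) : x = 1 := by
  obtain ⟨c, hc⟩ := isConj_iff.1 h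
  have key : ∀ n : ℕ, c ^ (2 * n) * x * (c ^ (2 * n))⁻¹ = x := by
    intro n
    induction n with
    | zero => simp
    | succ n ih =>
      have h2 : c * x⁻¹ * c⁻¹ = x := by
        rw [show c * x⁻¹ * c⁻¹ = (c * x * c⁻¹)⁻¹ by group, hc, inv_inv]
      calc c ^ (2 * (n + 1)) * x * (c ^ (2 * (n + 1)))⁻¹
          = c * (c * (c ^ (2 * n) * x * (c ^ (2 * n))⁻¹) * c⁻¹) * c⁻¹ := by group
        _ = x := by rw [ih, hc, h2]
  obtain ⟨k, hk⟩ := ho
  have h1 : c ^ (2 * k + 1) = 1 := by rw [← hk]; exact pow_card_eq_one'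
  have h3 : x = x⁻¹ := by
    calc x = c ^ (2 * k + 1) * x * (c ^ (2 * k + 1))⁻¹ := by rw [h1]; group
      _ = c * (c ^ (2 * k) * x * (c ^ (2 * k))⁻¹) * c⁻¹ := by group
      _ = x⁻¹ := by rw [key, hc]
  have h4 : x ^ 2 = 1 := by rw [sq]; nth_rewrite 2 [h3]; group
  have h5 : x ^ (2 * k + 1) = 1 := by rw [← hk]; exact pow_card_eq_one'
  rwa [pow_succ, pow_mul, h4, one_pow, one_mul] at h5

theorem exists_irr [Finite G] {H D : Subgroup G} {t x : G} (ht : t * t = 1)
    (hD : ∀ d, d ∈ D ↔ d ∈ H ∧ t * d * t ∈ H) (π : H →* D)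
    (hπ : ∀ (d : G) (hd : d ∈ D) (hd' : d ∈ H), π ⟨d, hd'⟩ = ⟨d, hd⟩)
    (hdc : ∀ g, g ∉ H → ∃ a ∈ H, ∃ b ∈ H, g = a * t * b) (ho : Odd (Nat.card D))
    (hx : x ∈ D) (hx1 : x ≠ 1) (hxt : t * x * t = x⁻¹) :
    ∃ χ : IrrCharacter G, H.index ∣ charDegree (χ : G → ℂ) := by
  classical
  haveI := Fintype.ofFinite G
  have ti : t⁻¹ = t := inv_eq_of_mul_eq_one_right ht
  have hDt : ∀ d ∈ D, t * d * t ∈ D := fun d hd => (hD _).2 ⟨((hD d).1 hd).2, by
    rw [show t * (t * d * t) * t = (t * t) * d * (t * t) by group, ht]; simpa using ((hD d).1 hd).1⟩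
  let c : D ≃* D :=
    { toFun := fun d => ⟨t * d * t, hDt d d.2⟩
      invFun := fun d => ⟨t * d * t, hDt d d.2⟩
      left_inv := fun d => Subtype.ext (by
        change t * (t * d * t) * t = d
        rw [show t * (t * d * t) * t = (t * t) * d * (t * t) by group, ht]; simp)
      right_inv := fun d => Subtype.ext (by
        change t * (t * d * t) * t = d
        rw [show t * (t * d * t) * t = (t * t) * d * (t * t) by group, ht]; simp)
      map_mul' := fun a b => Subtype.ext (by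
        change t * (a * b) * t = t * a * t * (t * b * t)
        rw [show t * a * t * (t * b * t) = t * a * (t * t) * b * t by group, ht]; group) }
  have hex : ∃ l : IrrCharacter D, (fun d => (l : D → ℂ) (c d)) ≠ l := by
    by_contra hne
    push Not at hne
    apply hx1
    have : IsConj (⟨x, hx⟩ : D) (⟨x, hx⟩ : D)⁻¹ := by
      rw [isConj_iff_forall_irr]
      intro l
      have e : c ⟨x, hx⟩ = (⟨x, hx⟩ : D)⁻¹ := Subtype.ext hxt
      rw [← e]
      exact (congrFun (hne l) _).symm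
    exact congrArg Subtype.val (eq_one_of_odd ho this)
  obtain ⟨l, hl⟩ := hex
  have hsurj : Function.Surjective π := fun d => ⟨⟨d, ((hD d).1 d.2).1⟩, hπ _ d.2 _⟩
  set θ : H → ℂ := fun h => (l : D → ℂ) (π h) with hθd
  have hθ : IsIrrCharacter H θ := l.2.comp_of_surjective π hsurj
  have hθc := hθ.isClassFunction
  let F : G → ℂ := fun g => ∑ a : H, extendByZero H θ (g⁻¹ * a * g) * conj (θ a)
  have hF : ∀ g, ∀ a ∈ H, ∀ b ∈ H, F (a * g * b) = F g := by
    intro g a ha b hb
    simp only [F]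
    refine Fintype.sum_equiv (MulAut.conj (⟨a, ha⟩ : H)⁻¹).toEquiv _ _ fun y => ?_
    have e1 : θ ((MulAut.conj (⟨a, ha⟩ : H)⁻¹).toEquiv y) = θ y := hθc _ _
    rw [e1]
    congr 1
    rw [← extendByZero_conj_mem H hθc hb]
    congr 1
    change _ = g⁻¹ * (a⁻¹ * y * a⁻¹⁻¹) * g
    group
  have hF1 : F 1 = Nat.card H := by
    simp only [F, inv_one, one_mul, mul_one]
    rw [← mul_one (Nat.card H : ℂ), ← hθ.classInner_self, card_mul_classInner]
    exact Finset.sum_congr rfl fun a _ => by rw [extendByZero_mem H θ a.2]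
  have hFt : F t = 0 := by
    have h0 : classInner (fun d => (l : D → ℂ) (c d)) l = 0 :=
      (l.2.comp_equiv c).classInner_of_ne l.2 hl
    have h1 : ∑ d : D, (l : D → ℂ) (c d) * conj ((l : D → ℂ) d) = 0 := by
      rw [← card_mul_classInner, h0, mul_zero]
    rw [← h1]
    simp only [F, ti]
    have hDH : D ≤ H := fun d hd => ((hD d).1 hd).1
    symm
    refine Finset.sum_of_injOn (fun d : D => inclusion hDH d) (fun a _ b _ h => inclusion_injective _ h)
      (fun _ _ => Finset.mem_univ _) (fun a _ ha => ?_) (fun d _ => ?_)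
    · have : t * a * t ∉ H := fun h => ha ⟨⟨a, (hD _).2 ⟨a.2, h⟩⟩, by simp, rfl⟩
      rw [extendByZero_not_mem H θ this, zero_mul]
    · have h2 : t * d * t ∈ H := ((hD d).1 d.2).2
      change _ = extendByZero H θ (t * d * t) * conj (θ ⟨d, hDH d.2⟩)
      rw [extendByZero_mem H θ h2]
      simp only [hθd]
      rw [hπ _ (hDt d d.2), hπ _ d.2]
      rfl
  have hs : ∑ g : G, F g = Nat.card H * Nat.card H := by
    have : ∀ g, F g = extendByZero H (fun _ => (Nat.card H : ℂ)) g := by
      intro g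
      by_cases hg : g ∈ H
      · rw [extendByZero_mem H _ hg, ← hF1, ← hF 1 g hg 1 H.one_mem]; simp
      · obtain ⟨a, ha, b, hb, rfl⟩ := hdc g hg
        rw [extendByZero_not_mem H _ hg, hF t a ha b hb, hFt]
    simp only [this, sum_extendByZero, Finset.sum_const, Finset.card_univ, nsmul_eq_mul,
      Nat.card_eq_fintype_card]
  have hirr : IsIrrCharacter G (indFun H θ) := by
    apply (isCharacter_indFun H hθ.isCharacter).isIrr_of_classInner_self
    rw [inner_indFun_indFun]
    change _ * ∑ g : G, F g = 1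
    rw [hs, inv_mul_cancel₀ (mul_ne_zero (card_ne_zero_C H) (card_ne_zero_C H))]
  refine ⟨⟨_, hirr⟩, charDegree θ, ?_⟩
  have e1 := hirr.isCharacter.charDegree_cast
  have e2 := hθ.isCharacter.charDegree_cast
  have : ((charDegree (indFun H θ) : ℕ) : ℂ) = (H.index * charDegree θ : ℕ) := by
    rw [e1, Nat.cast_mul, e2, indFun_one]
  exact_mod_cast this

end Cfsg.Agent.H9.R1C
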